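import Cfsg.Agent.FF2.Kit
import Cfsg.Agent.S0001

/-! Passage over an abelian minimal normal subgroup. -/

set_option autoImplicit false

namespace Cfsg.Lib.FF2

open Subgroup Cfsg.Lib.Solv

variable {G : Type*} [Group G] [Finite G]
variable {x : G} {p q : ℕ}

namespace Abel

omit [Finite G] in
theorem nrm {K : Subgroup G} (k : ⊤ ≤ Nm K) : K.Normal := normalizer_eq_top_iff.1 (top_le_iff.1 k)

omit [Finite G] in
theorem tnm (K : Subgroup G) [K.Normal] (g : G) : g ∈ Nm K := by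
  rw [Nm, normalizer_eq_top_iff.2 ‹_›]; trivial

omit [Finite G] in
theorem nil_ext {H : Type*} [Group H] (f : G →* H) (X : Subgroup G) (R : Subgroup H)
    (n : Group.IsNilpotent R) (m : ∀ a ∈ X, f a ∈ R)
    (c : ∀ a ∈ X, f a = 1 → ∀ b ∈ X, a * b = b * a) : Group.IsNilpotent X :=
  Subgroup.isNilpotent_of_ker_le_center ((f.comp X.subtype).codRestrict R fun a => m a a.2) fun a ha =>
    mem_center_iff.2 fun b => Subtype.ext (c a a.2 (congrArg Subtype.val ha) b b.2).symm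

omit [Finite G] in
theorem mem_cop {K : Subgroup G} {a : G} {m n : ℕ} (c : m.Coprime n) (h1 : a ^ m ∈ K)
    (h2 : a ^ n ∈ K) : a ∈ K := by
  obtain ⟨u, v, e⟩ := Nat.isCoprime_iff_coprime.2 c
  have : a = (a ^ m) ^ u * (a ^ n) ^ v := by
    rw [← zpow_natCast, ← zpow_natCast, ← zpow_mul, ← zpow_mul, ← zpow_add, mul_comm (m : ℤ),
      mul_comm (n : ℤ), e, zpow_one]
  rw [this]; exact mul_mem (zpow_mem h1 _) (zpow_mem h2 _)

theorem gd_of (hp : p.Prime) (F Y : Subgroup G) [F.Normal] [Y.Normal] (n : Group.IsNilpotent F)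
    (l : F ≤ Y) (hx : x ∈ Y) (k : ∀ y ∈ Y, ∃ n : ℕ, y ^ p ^ n ∈ F) : Gd p ⊤ x := by
  have := Fact.mk hp
  refine ⟨rp p F, Y, rp_le.trans l, le_top, fun g _ => nm_rp (tnm F g), fun g _ => tnm Y g,
    nil_of_le n rp_le, rp_cop n, hx, fun y hy => ?_⟩
  obtain ⟨m, hm⟩ := k y hy
  rw [← qp_sup_rp (q := p) (K := F)] at hm
  obtain ⟨s, hs, t, ht, e⟩ := mem_sup_nm ((rp_le_cn n).trans cn_le_nm) hm
  obtain ⟨j, hj⟩ := ((mem_qp n).1 hs).2
  have c : Commute s t := rp_le_cn n ht s hs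
  exact ⟨m + j, by rw [pow_add, pow_mul, e, c.mul_pow, hj, one_mul]; exact pow_mem ht _⟩

theorem sz {V K D E : Subgroup G} [V.Normal] (ab : ∀ a ∈ V, ∀ b ∈ V, a * b = b * a)
    (l1 : D ≤ K) (l2 : E ≤ K) (l : V ≤ K) (i1 : ∀ a ∈ V, a ∈ D → a = 1) (i2 : ∀ a ∈ V, a ∈ E → a = 1)
    (s1 : ∀ k ∈ K, ∃ v ∈ V, ∃ d ∈ D, v * d = k) (s2 : ∀ k ∈ K, ∃ v ∈ V, ∃ d ∈ E, v * d = k)
    (c : (Nat.card V).Coprime (Nat.card D)) : ∃ e ∈ V, cj e D = E := by
  have key : ∀ D : Subgroup G, D ≤ K → (∀ a ∈ V, a ∈ D → a = 1) →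
      (∀ k ∈ K, ∃ v ∈ V, ∃ d ∈ D, v * d = k) → IsComplement' (V.subgroupOf K) (D.subgroupOf K) :=
    fun D l1 i1 s1 => isComplement'_of_disjoint_and_mul_eq_univ
      (disjoint_def.2 fun {a} h1 h2 => Subtype.ext (i1 a h1 h2))
      (Set.eq_univ_of_forall fun k => by
        obtain ⟨v, hv, d, hd, e⟩ := s1 k k.2
        exact ⟨⟨v, l hv⟩, hv, ⟨d, l1 hd⟩, hd, Subtype.ext e⟩)
  obtain ⟨g, hg⟩ := Cfsg.Agent.S0001.result (V.subgroupOf K) (by
      rw [(key D l1 i1 s1).symm.index_eq_card, Nat.card_congr (subgroupOfEquivOfLe l).toEquiv,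
        Nat.card_congr (subgroupOfEquivOfLe l1).toEquiv]; exact c)
    (Or.inl (Group.isSolvable_of_comm fun a b => Subtype.ext (Subtype.ext (ab _ a.2 _ b.2)))) _ _
    (key D l1 i1 s1) (key E l2 i2 s2)
  obtain ⟨v, hv, d, hd, e⟩ := s1 g g.2
  refine ⟨v, hv, ?_⟩
  have h1 : cj (g : G) D = E := by
    ext a
    rw [mem_cj]
    constructor
    · intro h
      have ha : a ∈ K := by
        have := mul_mem (mul_mem g.2 (l1 h)) (inv_mem g.2)
        simpa [mul_assoc] using this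
      have : (⟨a, ha⟩ : K) ∈ E.subgroupOf K := by
        rw [← hg, mem_pointwise_smul_iff_inv_smul_mem]
        simpa [mem_subgroupOf] using h
      exact this
    · intro h
      have : (⟨a, l2 h⟩ : K) ∈ E.subgroupOf K := h
      rw [← hg, mem_pointwise_smul_iff_inv_smul_mem] at this
      simpa [mem_subgroupOf] using this
  rw [← h1, ← e, ← cj_cj, cj_eq_iff.2 (le_normalizer hd)]

end Abel

open Abel

theorem gd_of_abel {V : Subgroup G} [V.Normal] (hp : p.Prime) (hx : ∃ n : ℕ, x ^ p ^ n = 1)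
    (gd : ∀ H : Subgroup G, H ≠ ⊤ → x ∈ H → Gd p H x) (two : ∀ y : G, closure {x, y} ≠ ⊤)
    (hq : q.Prime) (hV : IsPGroup q V) (ab : ∀ a ∈ V, ∀ b ∈ V, a * b = b * a)
    (mn : ∀ W : Subgroup G, W.Normal → W ≤ V → W = ⊥ ∨ W = V)
    (k : Gd p ⊤ (QuotientGroup.mk' V x)) : Gd p ⊤ x := by
  have := Fact.mk hp
  have := Fact.mk hq
  obtain ⟨Kb, Yb, kb⟩ := k.ky
  set π := QuotientGroup.mk' V with hπ
  have kerV : ∀ a, π a = 1 ↔ a ∈ V := fun a => QuotientGroup.eq_one_iff a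
  have := nrm kb.nk
  have := nrm kb.ny
  have : (rp q Kb).Normal := nrm fun g _ => nm_rp (tnm Kb g)
  have : (qp q Kb).Normal := nrm fun g _ => nm_qp (tnm Kb g)
  set K0 := (rp q Kb).comap π with hK0
  have VK : V ≤ K0 := fun a ha => by
    show π a ∈ rp q Kb
    rw [(kerV a).2 ha]; exact one_mem _
  have VC : V ≤ Cn V := fun a ha b hb => ab b hb a ha
  have ord0 : ∀ a ∈ K0, ∃ m : ℕ, m.Coprime q ∧ m.Coprime p ∧ a ^ m ∈ V := fun a ha =>
    ⟨orderOf (π a), ((mem_rp kb.nil).1 ha).2, cop_ord kb.cop (rp_le ha),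
      (kerV _).1 (by rw [map_pow, pow_orderOf_eq_one])⟩
  by_cases c : ∀ a ∈ K0, a * x * a⁻¹ * x⁻¹ ∈ Cn V
  · set Kq := (qp q Kb).comap π with hKq
    have pq : IsPGroup q Kq := (qp_pg kb.nil).comap_of_ker_isPGroup π (by
      rw [hπ, QuotientGroup.ker_mk']; exact hV)
    have n0 : Group.IsNilpotent (K0 ⊓ Cn V : Subgroup G) :=
      nil_ext π _ Kb kb.nil (fun a ha => rp_le ha.1) fun a _ e b hb => hb.2 a ((kerV a).1 e)
    set F := (K0 ⊓ Cn V) ⊔ Kq with hF
    have nF : Group.IsNilpotent F := isNilpotent_sup_of_le_normalizer n0 pq.isNilpotent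
      (fun g _ => tnm Kq g) (fun g _ => tnm (K0 ⊓ Cn V) g)
    set K1 := Kb.comap π with hK1
    have FK : F ≤ K1 := sup_le (fun a ha => rp_le (q := q) (K := Kb) ha.1)
      fun a ha => qp_le (q := q) (K := Kb) ha
    set σ := QuotientGroup.mk' F with hσ
    have kerF : ∀ a, σ a = 1 ↔ a ∈ F := fun a => QuotientGroup.eq_one_iff a
    set X := Yb.comap π ⊓ (Cn (K1.map σ)).comap σ with hX
    have xX : x ∈ X := by
      refine ⟨kb.xy, ?_⟩
      rintro _ ⟨a, ha, rfl⟩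
      have ha' : π a ∈ qp q Kb ⊔ rp q Kb := by rw [qp_sup_rp]; exact ha
      obtain ⟨s, hs, t, ht, e⟩ := mem_sup_nm ((rp_le_cn kb.nil).trans cn_le_nm) ha'
      obtain ⟨t, rfl⟩ := QuotientGroup.mk'_surjective V t
      have h1 : a * t⁻¹ ∈ Kq := by
        show π (a * t⁻¹) ∈ qp q Kb
        rw [map_mul, map_inv, e, mul_inv_cancel_right]; exact hs
      have h2 : σ a = σ t := by
        have := (kerF _).2 (le_sup_right (a := K0 ⊓ Cn V) h1)
        rwa [map_mul, map_inv, mul_inv_eq_one] at this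
      have h3 : t * x * t⁻¹ * x⁻¹ ∈ F := le_sup_left (b := Kq) (a := K0 ⊓ Cn V) ⟨by
        have := (inferInstance : K0.Normal).conj_mem _ (inv_mem (show t ∈ K0 from ht)) x
        have := mul_mem (show t ∈ K0 from ht) this
        simpa [mul_assoc] using this, c t ht⟩
      have := (kerF _).2 h3
      rw [map_mul, map_mul, map_mul, map_inv, map_inv, mul_inv_eq_one, mul_inv_eq_iff_eq_mul] at this
      rw [h2]; exact this
    have : (K1.map σ).Normal := Normal.map inferInstance σ (QuotientGroup.mk'_surjective F)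
    have : (X.map σ).Normal := Normal.map inferInstance σ (QuotientGroup.mk'_surjective F)
    have nX : Group.IsNilpotent (X.map σ) := by
      refine nil_ext (QuotientGroup.mk' (K1.map σ)) _ ((X.map σ).map (QuotientGroup.mk' (K1.map σ)))
        (IsPGroup.isNilpotent (p := p) (pg_of ?_)) (fun a ha => mem_map_of_mem _ ha) ?_
      · rintro _ ⟨_, ⟨y, hy, rfl⟩, rfl⟩
        obtain ⟨n, hn⟩ := kb.pw _ hy.1
        refine ⟨n, ?_⟩
        rw [← map_pow, ← map_pow]
        exact (QuotientGroup.eq_one_iff _).2 (mem_map_of_mem _ (by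
          show π (y ^ p ^ n) ∈ Kb
          rw [map_pow]; exact hn))
      · rintro a - e _ ⟨b, hb, rfl⟩
        exact hb.2 a ((QuotientGroup.eq_one_iff _).1 e)
    have : (qp p (X.map σ)).Normal := nrm fun g _ => nm_qp (tnm _ g)
    refine gd_of hp F ((qp p (X.map σ)).comap σ) nF (fun a ha => ?_) ?_ fun y hy => ?_
    · show σ a ∈ qp p (X.map σ)
      rw [(kerF a).2 ha]; exact one_mem _
    · obtain ⟨n, hn⟩ := hx
      exact (mem_qp nX).2 ⟨mem_map_of_mem _ xX, n, by rw [← map_pow, hn, map_one]⟩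
    · obtain ⟨n, hn⟩ := ((mem_qp nX).1 hy).2
      exact ⟨n, (kerF _).1 (by rw [map_pow]; exact hn)⟩
  exfalso
  push Not at c
  obtain ⟨a, ha, c⟩ := c
  have wK : a * x * a⁻¹ * x⁻¹ ∈ K0 := by
    have := mul_mem ha ((inferInstance : K0.Normal).conj_mem _ (inv_mem ha) x)
    simpa [mul_assoc] using this
  have xc : ∀ y : G, x ∈ closure {x, y} := fun y => subset_closure (by simp)
  have yc : ∀ y : G, y ∈ closure {x, y} := fun y => subset_closure (by simp)
  have top : V ⊔ closure {x, a} = ⊤ := by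
    by_contra ne
    obtain ⟨K, Y, ky⟩ := (gd _ ne (le_sup_right (a := V) (xc a))).ky
    have wY : a * x * a⁻¹ * x⁻¹ ∈ Y :=
      mul_mem (nm_cj (ky.ny (le_sup_right (a := V) (yc a))) ky.xy) (inv_mem ky.xy)
    generalize a * x * a⁻¹ * x⁻¹ = w at *
    obtain ⟨m, m1, m2, hm⟩ := ord0 w wK
    obtain ⟨j, hj⟩ := pg_pow hV hm
    have o : orderOf (w ^ q ^ j) ∣ m := orderOf_dvd_of_pow_eq_one (by
      rw [← pow_mul, mul_comm, pow_mul, hj])
    have h2 : w ^ q ^ j ∈ rp q K := (mem_rp ky.nil).2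
      ⟨ky.mem _ (pow_mem wY _) (m2.coprime_dvd_left o), m1.coprime_dvd_left o⟩
    refine c (mem_cop (m1.pow_right j) (VC hm) fun v hv => ?_)
    generalize w ^ q ^ j = u at h2
    have h3 : v * u * v⁻¹ * u⁻¹ ∈ rp q K :=
      mul_mem (nm_cj (nm_rp (ky.nk (le_sup_left (b := closure {x, a}) hv))) h2) (inv_mem h2)
    have h4 : v * u * v⁻¹ * u⁻¹ ∈ V := by
      have := mul_mem hv ((inferInstance : V.Normal).conj_mem _ (inv_mem hv) u)
      simpa [mul_assoc] using this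
    obtain ⟨i, hi⟩ := pg_pow hV h4
    have := eq_one_of_pow ((mem_rp ky.nil).1 h3).2 hi
    rwa [mul_inv_eq_one, mul_inv_eq_iff_eq_mul] at this
  have topv : ∀ v ∈ V, V ⊔ closure {x, a * v} = ⊤ := fun v hv => by
    rw [eq_top_iff, ← top]
    refine sup_le le_sup_left ((closure_le _).2 ?_)
    rintro b (h | h)
    · rw [h]; exact le_sup_right (a := V) (xc _)
    · have := mul_mem (le_sup_right (a := V) (yc (a * v)))
        (le_sup_left (b := closure {x, a * v}) (inv_mem hv))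
      rw [show b = a from h]
      simpa using this
  have inf : ∀ v ∈ V, ∀ u ∈ V, u ∈ closure {x, a * v} → u = 1 := fun v hv u hu h => by
    have nn : (V ⊓ closure {x, a * v}).Normal := nrm (by
      rw [← topv v hv]
      refine sup_le (fun g hg => mem_nm fun b hb => ?_) fun g hg => nm_inf (tnm V g) (le_normalizer hg)
      rw [ab g hg b hb.1, mul_inv_cancel_right]; exact hb)
    rcases mn _ nn inf_le_left with e | e
    · have : u ∈ V ⊓ closure {x, a * v} := ⟨hu, h⟩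
      rwa [e] at this
    · exact absurd (by rw [← topv v hv, sup_eq_right.2 (inf_eq_left.1 e)]) (two (a * v))
  have dec : ∀ v ∈ V, ∀ k ∈ K0, ∃ u ∈ V, ∃ d ∈ closure {x, a * v} ⊓ K0, u * d = k := fun v hv k hk => by
    obtain ⟨u, hu, d, hd, e⟩ := mem_sup_nm (S := V) (T := closure {x, a * v}) (g := k)
      (fun g _ => tnm V g) (by rw [topv v hv]; trivial)
    refine ⟨u, hu, d, ⟨hd, ?_⟩, e.symm⟩
    have := mul_mem (inv_mem (VK hu)) hk
    rwa [e, inv_mul_cancel_left] at this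
  set D := closure {x, a * 1} ⊓ K0 with hD
  have cD : (Nat.card D).Coprime q := cop_of hq fun d hd => by
    obtain ⟨m, m1, -, hm⟩ := ord0 d hd.2
    exact m1.coprime_dvd_left (orderOf_dvd_of_pow_eq_one (inf 1 (one_mem _) _ hm (pow_mem hd.1 _)))
  have c0 : ∀ u ∈ V, u ∈ Cn K0 → u = 1 := fun u hu h => by
    rcases mn (V ⊓ Cn K0) inferInstance inf_le_left with e | e
    · have : u ∈ V ⊓ Cn K0 := ⟨hu, h⟩
      rwa [e] at this
    · exact absurd (fun v hv => ((inf_eq_left.1 e) hv _ wK).symm) c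
  have nD : ∀ u ∈ V, u ∈ Nm D → u = 1 := fun u hu h => c0 u hu fun k hk => by
    obtain ⟨v, hv, d, hd, rfl⟩ := dec 1 (one_mem _) k hk
    have h4 : u * d * u⁻¹ * d⁻¹ ∈ V := by
      have := mul_mem hu ((inferInstance : V.Normal).conj_mem _ (inv_mem hu) d)
      simpa [mul_assoc] using this
    have := inf 1 (one_mem _) _ h4 (mul_mem (nm_cj h hd) (inv_mem hd)).1
    rw [mul_inv_eq_one, mul_inv_eq_iff_eq_mul] at this
    rw [mul_assoc, ← this, ← mul_assoc, ab v hv u hu, mul_assoc]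
  have nL : ∀ y : G, closure {x, y} ≤ Nm (closure {x, y} ⊓ K0) := fun y g hg =>
    nm_inf (le_normalizer hg) (tnm K0 g)
  have sur : ∀ v ∈ V, ∃ e ∈ V ⊓ Cn (zpowers x), a⁻¹ * e * a * e⁻¹ = v := fun v hv => by
    obtain ⟨e, he, h⟩ := sz (D := D) (E := closure {x, a * v} ⊓ K0) ab inf_le_right inf_le_right VK
      (fun u hu h => inf 1 (one_mem _) u hu h.1) (fun u hu h => inf v hv u hu h.1)
      (dec 1 (one_mem _)) (dec v hv) (pg_cop hV cD.symm)
    have n1 := nL _ (xc (a * v))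
    have n2 := nL _ (yc (a * v))
    rw [← h, ← cj_nm, mem_cj] at n1 n2
    have e1 := nD _ (by
      have := mul_mem (inv_mem he) ((inferInstance : V.Normal).conj_mem _ he x)
      simpa [mul_assoc] using this) (mul_mem n1 (inv_mem (nL _ (xc (a * 1)))))
    have e2 := nD _ (by
      have := mul_mem (mul_mem ((inferInstance : V.Normal).conj_mem _ (inv_mem he) a⁻¹) hv) he
      simpa [mul_assoc] using this) (mul_mem (inv_mem (nL _ (yc (a * 1)))) n2)
    refine ⟨e, ⟨he, mem_cn_zp.2 ?_⟩, ?_⟩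
    · rw [mul_inv_eq_one, mul_assoc, inv_mul_eq_iff_eq_mul] at e1
      exact e1
    · rw [mul_one, inv_mul_eq_one] at e2
      have : v = a⁻¹ * (e * (e⁻¹ * (a * v) * e) * e⁻¹) := by group
      rw [this, ← e2]; group
  have le : Nat.card V ≤ Nat.card (V ⊓ Cn (zpowers x) : Subgroup G) :=
    Nat.card_le_card_of_surjective (fun e : (V ⊓ Cn (zpowers x) : Subgroup G) =>
      (⟨a⁻¹ * e * a * (e : G)⁻¹, mul_mem (by
        simpa using (inferInstance : V.Normal).conj_mem _ e.2.1 a⁻¹) (inv_mem e.2.1)⟩ : V)) fun v => by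
      obtain ⟨e, he, h⟩ := sur v v.2
      exact ⟨⟨e, he⟩, Subtype.ext h⟩
  have e := eq_of_le_of_card_ge (inf_le_left : V ⊓ Cn (zpowers x) ≤ V) le
  have xV : x ∈ Cn V := fun v hv => (mem_cn_zp.1 ((inf_eq_left.1 e) hv)).eq.symm
  exact c (mul_mem ((inferInstance : (Cn V).Normal).conj_mem _ xV a) (inv_mem xV))

end Cfsg.Lib.FF2
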