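import Cfsg.Agent.FF2.Same
import Cfsg.Agent.S1324

/-! `x` is central in every `p`-subgroup containing it. -/

set_option autoImplicit false

namespace Cfsg.Lib.FF2

open Subgroup Cfsg.Lib.Solv
open scoped commutatorElement

variable {G : Type*} [Group G] [Finite G]
variable {A B D E H K L Q R S T U Y : Subgroup G} {a g h x z : G} {p q : ℕ}

namespace Cen

theorem mb (h : Hy p x) (hS : Mb p x S) (c : Commute z x)
    (k : ¬ S ⊓ Cn (zpowers z) ≤ Cn (zpowers x)) : Mb p x ⁅S ⊓ Cn (zpowers z), zpowers x⁆ ∧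
      ⁅S ⊓ Cn (zpowers z), zpowers x⁆ ≤ S ⊓ Cn (zpowers z) := by
  have n : zpowers x ≤ Nm (S ⊓ Cn (zpowers z)) := fun g hg =>
    nm_inf (hS.nm hg) (le_normalizer (zpowers_le.2 (mem_cn_zp.2 c) hg))
  exact ⟨h.mb_cm (nil_of_le hS.nil inf_le_left) (cop_of_le hS.cop inf_le_left) n
    fun e => k (comm_eq_bot.1 e), comm_le n⟩

theorem nz (h : Hy p x) (hS : Maximal (Mb p x) S) (hT : Maximal (Mb p x) T) (z1 : z ≠ 1)
    (c : Commute z x) (k1 : ¬ S ⊓ Cn (zpowers z) ≤ Cn (zpowers x))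
    (k2 : ¬ T ⊓ Cn (zpowers z) ≤ Cn (zpowers x)) : S = T :=
  let ⟨a1, a2⟩ := mb h hS.1 c k1
  let ⟨b1, b2⟩ := mb h hT.1 c k2
  h.link hS hT (h.cn_ne (zpowers_ne_bot.2 z1)) (mem_cn_zp.2 c) a1 b1 (a2.trans inf_le_left)
    (a2.trans inf_le_right) (b2.trans inf_le_left) (b2.trans inf_le_right)

theorem hyp (h : Hy p x) (hS : Maximal (Mb p x) S) (hB : IsElementaryAbelian p B)
    (h2 : p ^ 2 ≤ Nat.card B) (l : B ≤ Cn (zpowers x)) : ∃ Y ≤ B, Y.relIndex B ≤ p ∧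
      ∀ z ∈ Y, ¬ S ⊓ Cn (zpowers z) ≤ Cn (zpowers x) := by
  have := Fact.mk h.pp
  by_contra k
  push Not at k
  refine hS.1.ne (hS.1.cm.symm.trans (comm_eq_bot.2 ?_))
  refine (Cfsg.Agent.S1324.result p B S hB h2 ((Nat.Prime.coprime_iff_not_dvd h.pp).1 hS.1.cop.symm)
    fun b hb => h.cinv hS (mem_cn_zp.1 (l hb))).le.trans (iSup_le fun Y => ?_)
  obtain ⟨z, hz, e⟩ := k Y.1 Y.2.1 Y.2.2
  exact (inf_le_inf_left S (centralizer_le (zpowers_le.2 hz))).trans e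

omit [Finite G] in
theorem cj_pow (e : g * x * g⁻¹ = z * x) (c : Commute g z) (k : ℕ) :
    g ^ k * x * (g ^ k)⁻¹ = z ^ k * x := by
  induction k with
  | zero => simp
  | succ k ih =>
    calc _ = g * (g ^ k * x * (g ^ k)⁻¹) * g⁻¹ := by group
      _ = g * z ^ k * g⁻¹ * (g * x * g⁻¹) := by rw [ih]; group
      _ = _ := by rw [(c.pow_right k).eq, e, pow_succ]; group

theorem prime_card (hp : p.Prime) (hc : Nat.card K = p) (l : L ≤ K) : L = ⊥ ∨ L = K := by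
  rcases (Nat.dvd_prime hp).1 (hc ▸ card_dvd_of_le l) with e | e
  · exact .inl (card_eq_one.1 e)
  · exact .inr (eq_of_le_of_card_ge l (by rw [e, hc]))

end Cen

open Cen

theorem Hy.cen (h : Hy p x) (hS : Maximal (Mb p x) S) (hT : Maximal (Mb p x) T) (ne : S ≠ T)
    (hR : IsPGroup p R) (l : x ∈ R) : ∀ r ∈ R, Commute x r := by
  have := Fact.mk h.pp
  by_contra k
  have lt : R ⊓ Cn (zpowers x) < R := lt_of_le_of_ne inf_le_left fun e =>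
    k fun r hr => mem_cn_zp.1 (e.ge hr).2
  obtain ⟨l1, g, hg, g1⟩ := SetLike.lt_iff_le_and_exists.1
    (PG.lt_inf_normalizer_of_isNilpotent hR.isNilpotent lt)
  have gx : ¬ Commute x g := fun c => g1 ⟨hg.1, mem_cn_zp.2 c⟩
  have x1 : x ∈ R ⊓ Cn (zpowers x) := ⟨l, mem_cn_zp.2 (Commute.refl x)⟩
  have x2 : x ∈ Cn (R ⊓ Cn (zpowers x)) := fun r hr => (mem_cn_zp.1 hr.2).eq.symm
  have l2 : R ⊓ Cn (zpowers x) ≤ Cn (zpowers x) := inf_le_right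
  generalize R ⊓ Cn (zpowers x) = R1 at *
  have p2 : IsPGroup p ↥(R ⊓ Nm R1) := hR.to_le inf_le_left
  have n2 : R ⊓ Nm R1 ≤ Nm R1 := inf_le_right
  generalize R ⊓ Nm R1 = R2 at *
  obtain ⟨B, hB⟩ : ∃ B : Subgroup G, ∀ a, a ∈ B ↔ a ∈ R1 ∧ a ∈ Cn R1 ∧ a ^ p = 1 :=
    ⟨{ carrier := {a | a ∈ R1 ∧ a ∈ Cn R1 ∧ a ^ p = 1}
       one_mem' := ⟨one_mem _, one_mem _, one_pow _⟩
       mul_mem' := fun {a b} ha hb => ⟨mul_mem ha.1 hb.1, mul_mem ha.2.1 hb.2.1, by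
         rw [Commute.mul_pow (hb.2.1 a ha.1), ha.2.2, hb.2.2, one_mul]⟩
       inv_mem' := fun {a} ha => ⟨inv_mem ha.1, inv_mem ha.2.1, by rw [inv_pow, ha.2.2, inv_one]⟩ },
      fun _ => Iff.rfl⟩
  have b1 : B ≤ R1 := fun a ha => ((hB a).1 ha).1
  have ab : ∀ a ∈ B, ∀ b ∈ B, a * b = b * a := fun a ha b hb => ((hB b).1 hb).2.1 a (b1 ha)
  have xB : x ∈ B := (hB x).2 ⟨x1, x2, h.xp⟩
  have nB : R2 ≤ Nm B := fun r hr => mem_nm fun a ha => (hB _).2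
    ⟨nm_cj (n2 hr) (b1 ha), nm_cj (nm_cn (n2 hr)) ((hB a).1 ha).2.1, by
      rw [conj_pow, ((hB a).1 ha).2.2, mul_one, mul_inv_cancel]⟩
  have z0 : ⁅g, x⁆ ∈ ⁅B, R2⁆ := by
    rw [← commutatorElement_inv]; exact inv_mem (commutator_mem_commutator xB hg)
  have z1 : ⁅g, x⁆ ≠ 1 := fun e => gx (commutatorElement_eq_one_iff_mul_comm.1 e).symm
  have c1 := PG.commutator_lt_of_isNilpotent p2.isNilpotent (b1.trans l1) nB
    fun e => h.ne1 (mem_bot.1 (e ▸ xB))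
  have n0 : ⁅B, R2⁆ ≠ ⊥ := fun e => z1 (mem_bot.1 (e ▸ z0))
  have c2 := PG.commutator_lt_of_isNilpotent p2.isNilpotent (c1.le.trans (b1.trans l1))
    (normalizer_commutator_ge_right _ _) n0
  generalize ⁅B, R2⁆ = B' at *
  obtain ⟨n, e1⟩ := (p2.to_le (b1.trans l1)).exists_card_eq
  obtain ⟨m, e2⟩ := (p2.to_le (c1.le.trans (b1.trans l1))).exists_card_eq
  have m0 : m ≠ 0 := fun e => n0 (card_eq_one.1 (by rw [e2, e, pow_zero]))
  have mn : m < n := (Nat.pow_lt_pow_iff_right h.pp.one_lt).1 (by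
    rw [← e1, ← e2]; exact PG.card_lt_card_of_lt c1)
  have h2 : p ^ 2 ≤ Nat.card B := e1 ▸ Nat.pow_le_pow_right h.pp.pos (by omega)
  have el : IsElementaryAbelian p B :=
    ⟨PG.isMulCommutative_of_forall ab, fun a ha => ((hB a).1 ha).2.2⟩
  obtain ⟨Y1, y1, i1, k1⟩ := hyp h hS el h2 (b1.trans l2)
  obtain ⟨Y2, y2, i2, k2⟩ := hyp h hT el h2 (b1.trans l2)
  have e3 : Y1 ⊓ Y2 = ⊥ := eq_bot_iff.2 fun z hz => by
    by_contra z1
    exact ne (nz h hS hT z1 (ab _ (y1 hz.1) _ xB) (k1 z hz.1) (k2 z hz.2))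
  have h3 : Nat.card B ≤ p ^ 2 := by
    rw [← relIndex_bot_left, ← e3, pow_two]
    exact relIndex_inf_le.trans (Nat.mul_le_mul i1 i2)
  have n2 : n ≤ 2 := (Nat.pow_le_pow_iff_right h.pp.one_lt).1 (e1 ▸ h3)
  have e4 : Nat.card B' = p := by rw [e2, show m = 1 by omega, pow_one]
  have e5 : B' ≤ Cn R2 := comm_eq_bot.1 ((prime_card h.pp e4 c2.le).resolve_right c2.ne)
  have e6 : zpowers ⁅g, x⁆ = B' :=
    (prime_card h.pp e4 (zpowers_le.2 z0)).resolve_left (zpowers_ne_bot.2 z1)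
  have key : ∀ {U Y : Subgroup G}, Maximal (Mb p x) U → Y ≤ B → Y.relIndex B ≤ p →
      (∀ z ∈ Y, ¬ U ⊓ Cn (zpowers z) ≤ Cn (zpowers x)) → ⁅g, x⁆ ∈ Y := by
    intro U Y hU y i k
    rcases prime_card h.pp e4 (inf_le_right : Y ⊓ B' ≤ B') with e | e
    swap
    · exact (e.ge z0).1
    have nY : B' ≤ Nm Y := fun b hb => cn_le_nm fun a ha => ab a (y ha) b (c1.le hb)
    have f1 := PG.card_sup_mul_card_inf nY
    rw [e, card_bot, mul_one, e4] at f1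
    have f2 : Y ⊔ B' = B := eq_of_le_of_card_ge (sup_le y c1.le) (by
      rw [f1, ← PG.relIndex_mul_card y, mul_comm]
      exact Nat.mul_le_mul_left _ i)
    obtain ⟨s, hs, t, ht, f3⟩ := mem_sup_nm nY (f2.ge xB)
    obtain ⟨j, f4⟩ := mem_powers_iff_mem_zpowers.2 (e6.ge (inv_mem ht))
    have f5 : g ^ j * x * (g ^ j)⁻¹ = s := by
      rw [cj_pow (z := ⁅g, x⁆) (by rw [commutatorElement_def]; group) (e5 z0 g hg) j]
      rw [show ⁅g, x⁆ ^ j = t⁻¹ from f4, ab _ (inv_mem (c1.le ht)) _ xB, mul_inv_eq_iff_eq_mul, ← f3]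
    exact absurd (f5 ▸ h.cfix hS hT ne (f5.symm ▸ ab _ xB _ (y hs)) hU) (k s hs)
  exact z1 (mem_bot.1 (e3 ▸ ⟨key hS y1 i1 k1, key hT y2 i2 k2⟩))

end Cfsg.Lib.FF2
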