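import Cfsg.Agent.FF2.Kit

/-! A `q`-member meeting the centraliser of a `q'`-member centralises it. -/

set_option autoImplicit false

namespace Cfsg.Lib.FF2

open Subgroup Cfsg.Lib.Solv

variable {G : Type*} [Group G] [Finite G]
variable {A D E H K L Q R S T U : Subgroup G} {a g h x : G} {p q : ℕ}

/-- the commutator of `x` with a `q`-element centralising a `q'`-element `b` -/
theorem Cross.key (h : Hy p x) [Fact q.Prime] {v b : G} {F : Subgroup G} {n : ℕ}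
    (hv : v ^ q ^ n = 1) (hb : b ∈ F) (hF : (Nat.card F).Coprime q) (c : Commute v b)
    (w1 : ∃ m : ℕ, (x * v * x⁻¹ * v⁻¹) ^ q ^ m = 1) (w2 : (orderOf (x * v * x⁻¹ * v⁻¹)).Coprime p)
    (w3 : x * v * x⁻¹ * v⁻¹ ∈ Nm F) :
    b * (x * v * x⁻¹ * v⁻¹) = (x * v * x⁻¹ * v⁻¹) * b := by
  have m1 : x ∈ closure {x, v * b} := subset_closure (by simp)
  have m2 : v * b ∈ closure {x, v * b} := subset_closure (by simp)
  obtain ⟨K, Y, z⟩ := h.ky (h.two (v * b)) m1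
  have m3 : b ∈ closure {x, v * b} := mem_of_pow (n := n) (cop_ord hF hb) (by
    have := pow_mem m2 (q ^ n)
    rwa [c.mul_pow, hv, one_mul] at this)
  have m4 : v ∈ closure {x, v * b} := by simpa using mul_mem m2 (inv_mem m3)
  have m5 : x * v * x⁻¹ * v⁻¹ ∈ Y := by
    have := mul_mem z.xy (nm_cj (z.ny m4) (inv_mem z.xy))
    simpa only [mul_assoc] using this
  generalize x * v * x⁻¹ * v⁻¹ = w at *
  have m6 : w ∈ qp q K := (mem_qp z.nil).2 ⟨z.mem w m5 w2, w1⟩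
  have m7 : b * w * b⁻¹ * w⁻¹ ∈ qp q K := mul_mem (nm_cj (nm_qp (z.nk m3)) m6) (inv_mem m6)
  have m8 : b * w * b⁻¹ * w⁻¹ ∈ F := by
    have := mul_mem hb (nm_cj w3 (inv_mem hb))
    simpa only [mul_assoc] using this
  obtain ⟨-, m, e⟩ := (mem_qp z.nil).1 m7
  have := eq_one_of_pow (cop_ord hF m8) e
  rwa [mul_inv_eq_one, mul_inv_eq_iff_eq_mul] at this

theorem Hy.cross (h : Hy p x) [Fact q.Prime] (hq : q ≠ p) (hS : Mq q (zpowers x) S)
    (hE : Mb p x E) (hEq : (Nat.card E).Coprime q) (hc : ⁅S ⊓ Cn E, zpowers x⁆ ≠ ⊥) :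
    S ≤ Cn E := by
  have hqp : q.Coprime p := (Nat.coprime_primes Fact.out h.pp).2 hq
  have pg : ∀ Z, Z ≤ S → IsPGroup q Z := fun Z l => hS.pg.to_le l
  have cp : ∀ Z, Z ≤ S → (Nat.card Z).Coprime p := fun Z l => pg_cop (pg Z l) hqp
  have nSE : zpowers x ≤ Nm (S ⊓ Cn E) := fun g hg => nm_inf (hS.nm hg) (nm_cn (hE.nm hg))
  have mI := mq_cm (by rw [h.czp]; exact hqp.symm) (pg _ inf_le_left) nSE hc
  have lI := comm_le nSE
  have uI : ∀ Z, Z ≤ S ⊓ Cn E → ⁅Z, zpowers x⁆ ≤ ⁅S ⊓ Cn E, zpowers x⁆ :=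
    fun Z l => commutator_mono l le_rfl
  generalize ⁅S ⊓ Cn E, zpowers x⁆ = I at mI lI uI
  have EH : E ≤ Nm I := (le_centralizer_iff.1 (lI.trans inf_le_right)).trans cn_le_nm
  obtain ⟨K, Yk, z⟩ := h.ky (h.nm_ne mI.ne mI.pg.isNilpotent) (mI.nm (mem_zpowers x))
  have nR : zpowers x ≤ Nm (rp q K) := fun g hg => nm_rp (z.xk hg)
  have Fle := comm_le nR
  have EF : E ≤ ⁅rp q K, zpowers x⁆ :=
    hE.cm.symm.trans_le (commutator_mono (le_rp hEq (z.le hE EH)) le_rfl)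
  have mF := h.mb_cm (nil_of_le z.nil rp_le) (cop_of_le z.cop rp_le) nR
    fun e => hE.ne (le_bot_iff.1 (EF.trans_eq e))
  have nF : ∀ g ∈ Nm I, g ∈ Cn (zpowers x) → g ∈ Nm ⁅rp q K, zpowers x⁆ :=
    fun g h1 h2 => nm_comm (nm_rp (z.nk h1)) (cn_le_nm h2)
  generalize ⁅rp q K, zpowers x⁆ = F at Fle EF mF nF
  have cF : (Nat.card F).Coprime q := cop_of_le (rp_cop z.nil) Fle
  have qF : qp q K ≤ Cn F := le_centralizer_iff.1 (Fle.trans (rp_le_cn z.nil))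
  have nY : zpowers x ≤ Nm (S ⊓ Cn F) := fun g hg => nm_inf (hS.nm hg) (nm_cn (mF.nm hg))
  have IY : I ≤ S ⊓ Cn F := le_inf (lI.trans inf_le_left)
    ((le_qp mI.pg (z.le (mI.mb hqp) le_normalizer)).trans qF)
  have eY : ⁅S ⊓ Cn F, zpowers x⁆ = I := le_antisymm
    (uI _ (inf_le_inf_left _ (centralizer_le EF))) (mI.cm.symm.trans_le (commutator_mono IY le_rfl))
  have nY1 : zpowers x ≤ Nm (S ⊓ Nm I) := fun g hg => nm_inf (hS.nm hg) (nm_nm (mI.nm hg))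
  have c1 : ⁅S ⊓ Nm I, zpowers x⁆ ≤ S ⊓ Cn F := le_inf ((comm_le nY1).trans inf_le_left)
    ((le_qp (pg _ ((comm_le nY1).trans inf_le_left))
      (z.cm _ inf_le_right (cp _ inf_le_left) nY1)).trans qF)
  have YY1 : S ⊓ Cn F ≤ S ⊓ Nm I := le_inf inf_le_left (eY ▸ le_nm_comm)
  have eY1 : ⁅S ⊓ Nm I, zpowers x⁆ = I := le_antisymm
    ((stable nY1 (h.cop (cp _ inf_le_left)) (pg _ inf_le_left).isNilpotent).symm.trans_le
      ((commutator_mono c1 le_rfl).trans_eq eY))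
    (eY.symm.trans_le (commutator_mono YY1 le_rfl))
  have Y1F : S ⊓ Nm I ≤ Nm F :=
    le_of_decomp nY1 (h.cop (cp _ inf_le_left)) (pg _ inf_le_left).isNilpotent
      (c1.trans (inf_le_right.trans cn_le_nm)) fun g h1 h2 => nF g h1.2 h2
  -- (a)
  have pa : S ⊓ Nm (S ⊓ Cn F) ≤ S ⊓ Nm I := by
    obtain ⟨K', Y', z'⟩ := h.ky (h.nm_ne (fun e => mI.ne (le_bot_iff.1 (IY.trans_eq e)))
      (pg _ inf_le_left).isNilpotent) (nY (mem_zpowers x))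
    have f1 : F ≤ rp q K' :=
      le_rp cF (z'.le mF ((le_centralizer_iff.1 inf_le_right).trans cn_le_nm))
    have nW : zpowers x ≤ Nm (S ⊓ Nm (S ⊓ Cn F)) := fun g hg => nm_inf (hS.nm hg) (nm_nm (nY hg))
    refine le_of_decomp nW (h.cop (cp _ inf_le_left)) (pg _ inf_le_left).isNilpotent
      ((le_inf ((comm_le nW).trans inf_le_left) ((le_qp (pg _ ((comm_le nW).trans inf_le_left))
        (z'.cm _ inf_le_right (cp _ inf_le_left) nW)).trans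
          (le_centralizer_iff.1 (f1.trans (rp_le_cn z'.nil))))).trans YY1)
      fun g h1 h2 => ⟨h1.1, eY ▸ nm_comm h1.2 (cn_le_nm h2)⟩
  -- (b)
  have pb : ∀ a ∈ S ⊓ Nm (S ⊓ Nm I), x ∈ Nm (FF2.cj a (S ⊓ Cn F)) := fun a ha => by
    have e1 : FF2.cj a (S ⊓ Cn F) = S ⊓ Cn (FF2.cj a F) := by
      rw [cj_inf, cj_cn, cj_eq_iff.2 (le_normalizer ha.1)]
    have e2 : FF2.cj a (S ⊓ Nm I) = S ⊓ Nm I := cj_eq_iff.2 ha.2
    refine mem_nm fun v hv => ?_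
    have v1 : v ∈ S ⊓ Nm I := e2 ▸ cj_mono YY1 hv
    have w1 : x * v * x⁻¹ * v⁻¹ ∈ S ⊓ Nm I :=
      mul_mem (nm_cj (nY1 (mem_zpowers x)) v1) (inv_mem v1)
    have w2 : x * v * x⁻¹ * v⁻¹ ∈ FF2.cj a (S ⊓ Cn F) := by
      rw [e1] at hv ⊢
      obtain ⟨n, hn⟩ := pg_pow hS.pg hv.1
      have w3 : x * v * x⁻¹ * v⁻¹ ∈ Nm (FF2.cj a F) := by
        rw [← cj_nm]; exact cj_mono Y1F (e2.ge w1)
      exact ⟨w1.1, fun b hb => Cross.key h hn hb (by rw [cj_card]; exact cF) (hv.2 b hb).symm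
        (pg_pow hS.pg w1.1) (cop_ord (cp _ le_rfl) w1.1) w3⟩
    simpa using mul_mem w2 hv
  have nY2 : zpowers x ≤ Nm (S ⊓ Nm (S ⊓ Nm I)) := fun g hg => nm_inf (hS.nm hg) (nm_nm (nY1 hg))
  have pc : S ⊓ Nm (S ⊓ Nm I) ≤ S ⊓ Nm I := by
    refine le_of_decomp nY2 (h.cop (cp _ inf_le_left)) (pg _ inf_le_left).isNilpotent
      ((le_inf ((comm_le nY2).trans inf_le_left) (commutator_le.2 fun a ha t ht => ?_)).trans pa)
      fun g h1 h2 => ⟨h1.1, eY1 ▸ nm_comm h1.2 (cn_le_nm h2)⟩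
    have := zpowers_le.2 (pb a⁻¹ (inv_mem ha)) ht
    rw [← cj_nm, mem_cj, inv_inv] at this
    exact mul_mem this (inv_mem (nY ht))
  have eS : S ⊓ Nm I = S := by
    by_contra ne
    exact (PG.lt_inf_normalizer_of_isNilpotent hS.pg.isNilpotent
      (lt_of_le_of_ne inf_le_left ne)).not_ge pc
  rw [eS, hS.cm] at eY1
  exact eY1 ▸ lI.trans inf_le_right

end Cfsg.Lib.FF2
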