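import Cfsg.Agent.FF2.Kit
import Cfsg.Agent.Solv.Fitting

/-! The second Fitting term and the predicate `Gd`. -/

set_option autoImplicit false

namespace Cfsg.Lib.FF2

open Subgroup Cfsg.Lib.Solv

/-- the second term of the upper Fitting chain -/
def fit2 (X : Type*) [Group X] : Subgroup X :=
  (Cfsg.fittingSubgroup (X ⧸ Cfsg.fittingSubgroup X)).comap
    (QuotientGroup.mk' (Cfsg.fittingSubgroup X))

variable {G : Type*} [Group G]

theorem fin_nil_map {A B : Type*} [Group A] [Group B] (f : G →* A) (g : G →* B)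
    (l : f.ker ≤ g.ker) (Y : Subgroup G) (n : Group.IsNilpotent (Y.map f)) :
    Group.IsNilpotent (Y.map g) := by
  have hf := f.subgroupMap_surjective Y
  have hg := g.subgroupMap_surjective Y
  have l' : (f.subgroupMap Y).ker ≤ (g.subgroupMap Y).ker := fun a ha =>
    Subtype.ext (l (congrArg Subtype.val ha : f a = 1))
  refine Group.nilpotent_of_surjective
    ((f.subgroupMap Y).liftOfSurjective hf ⟨g.subgroupMap Y, l'⟩) fun b => ?_
  obtain ⟨a, rfl⟩ := hg b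
  exact ⟨f.subgroupMap Y a, MonoidHom.liftOfRightInverse_comp_apply _ _ _ _ _⟩

theorem fit2_normal : (fit2 G).Normal := Normal.comap inferInstance _

theorem le_fit2 {Y : Subgroup G} (hY : Y.Normal)
    (n : Group.IsNilpotent (Y.map (QuotientGroup.mk' (Cfsg.fittingSubgroup G)))) : Y ≤ fit2 G :=
  map_le_iff_le_comap.1 (le_fitting (hY.map _ (QuotientGroup.mk'_surjective _)) n)

variable [Finite G] {p : ℕ} {x : G} {H L : Subgroup G}

theorem fit2_subgroupOf (H : Subgroup G) : (fit2 G).subgroupOf H ≤ fit2 H := by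
  have := fit2_normal (G := G)
  refine le_fit2 inferInstance (fin_nil_map
    ((QuotientGroup.mk' (Cfsg.fittingSubgroup G)).comp H.subtype) _ (fun a ha => ?_) _ ?_)
  · rw [QuotientGroup.ker_mk']
    refine fitting_subgroupOf_le H ?_
    rw [mem_subgroupOf]
    exact (QuotientGroup.eq_one_iff _).1 ha
  · refine isNilpotent_of_le_fitting ?_
    rintro _ ⟨a, ha, rfl⟩
    exact ha

theorem gd_of_fit2 (hp : p.Prime) (hx : ∃ n : ℕ, x ^ p ^ n = 1) (k : x ∈ fit2 G) :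
    Gd p ⊤ x := by
  have := Fact.mk hp
  have hF : Group.IsNilpotent (Cfsg.fittingSubgroup G) := inferInstance
  have hF' : Group.IsNilpotent (Cfsg.fittingSubgroup (G ⧸ Cfsg.fittingSubgroup G)) :=
    inferInstance
  have n1 : (qp p (Cfsg.fittingSubgroup (G ⧸ Cfsg.fittingSubgroup G))).Normal :=
    normalizer_eq_top_iff.1 (top_le_iff.1 fun g hg =>
      nm_qp ((normalizer_eq_top _).ge hg))
  have n2 := n1.comap (QuotientGroup.mk' (Cfsg.fittingSubgroup G))
  refine ⟨rp p (Cfsg.fittingSubgroup G),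
    (qp p (Cfsg.fittingSubgroup (G ⧸ Cfsg.fittingSubgroup G))).comap
      (QuotientGroup.mk' (Cfsg.fittingSubgroup G)), fun a ha => ?_, le_top,
    fun g hg => nm_rp ((normalizer_eq_top _).ge hg), (normalizer_eq_top _).ge,
    nil_of_le hF rp_le, rp_cop hF, ?_, fun y hy => ?_⟩
  · rw [mem_comap, QuotientGroup.mk'_apply, (QuotientGroup.eq_one_iff a).2 (rp_le ha)]
    exact one_mem _
  · obtain ⟨n, hn⟩ := hx
    exact subset_closure ⟨k, n, by rw [← map_pow, hn, map_one]⟩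
  · obtain ⟨-, n, hn⟩ := (mem_qp hF').1 hy
    rw [← map_pow, QuotientGroup.mk'_apply, QuotientGroup.eq_one_iff,
      ← qp_sup_rp (q := p) (K := Cfsg.fittingSubgroup G)] at hn
    obtain ⟨s, hs, t, ht, e⟩ := mem_sup_nm ((rp_le_cn hF).trans cn_le_nm) hn
    obtain ⟨-, m, hm⟩ := (mem_qp hF).1 hs
    have c : Commute s t := rp_le_cn hF ht s hs
    refine ⟨n + m, ?_⟩
    rw [pow_add, pow_mul, e, c.mul_pow, hm, one_mul]
    exact pow_mem ht _

theorem fit2_of_gd (hp : p.Prime) (k : Gd p ⊤ x) : x ∈ fit2 G := by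
  have := Fact.mk hp
  obtain ⟨K, Y, -, -, c, d, e, -, i, j⟩ := k
  have l : K ≤ Cfsg.fittingSubgroup G := le_fitting (normalizer_eq_top_iff.1 (top_le_iff.1 c)) e
  refine le_fit2 (normalizer_eq_top_iff.1 (top_le_iff.1 d)) (IsPGroup.isNilpotent (p := p)
    (pg_of ?_)) i
  rintro _ ⟨y, hy, rfl⟩
  obtain ⟨n, hn⟩ := j y hy
  exact ⟨n, by rw [← map_pow, QuotientGroup.mk'_apply, QuotientGroup.eq_one_iff]; exact l hn⟩

theorem fin_gd_sub {a : H} (k : Gd p ⊤ a) : Gd p H (a : G) := by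
  obtain ⟨K, Y, a, -, c, d, e, f, i, j⟩ := k
  have m : ∀ Z : Subgroup H, ⊤ ≤ Nm Z → H ≤ Nm (Z.map H.subtype) := fun Z hZ g hg =>
    mem_nm (by
      rintro _ ⟨b, hb, rfl⟩
      exact ⟨_, nm_cj (hZ (mem_top (⟨g, hg⟩ : H))) hb, rfl⟩)
  refine ⟨K.map H.subtype, Y.map H.subtype, map_mono a, map_subtype_le _, m K c, m Y d,
    isNilpotent_map _ _ e, by rw [card_map_of_injective H.subtype_injective]; exact f,
    ⟨_, i, rfl⟩, ?_⟩
  rintro _ ⟨y, hy, rfl⟩
  obtain ⟨n, hn⟩ := j y hy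
  exact ⟨n, _, hn, map_pow _ _ _⟩

omit [Finite G] in
theorem fin_gd_res (k : Gd p H x) (l : L ≤ H) (hx : x ∈ L) : Gd p L x := by
  obtain ⟨K, Y, a, -, c, d, e, f, i, j⟩ := k
  refine ⟨K ⊓ L, Y ⊓ L, inf_le_inf_right _ a, inf_le_right,
    fun g hg => nm_inf (c (l hg)) (le_normalizer hg),
    fun g hg => nm_inf (d (l hg)) (le_normalizer hg), nil_of_le e inf_le_left,
    cop_of_le f inf_le_left, ⟨i, hx⟩, fun y hy => ?_⟩
  obtain ⟨n, hn⟩ := j y hy.1
  exact ⟨n, hn, pow_mem hy.2 _⟩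

theorem fit2_of_two
    (top : ∀ p : ℕ, p.Prime → ∀ z : G, (∃ n : ℕ, z ^ p ^ n = 1) →
      (∀ y : G, Gd p (closure {z, y}) z) → Gd p ⊤ z)
    (k : ∀ y : G, ∀ hx : x ∈ closure ({x, y} : Set G),
      (⟨x, hx⟩ : closure ({x, y} : Set G)) ∈ fit2 (closure ({x, y} : Set G))) : x ∈ fit2 G := by
  refine le_of_forall_prime_pow_mem (K := zpowers x) (fun p hp n z hz e => ?_) (mem_zpowers x)
  have hz1 : z ^ p ^ n = 1 := by rw [← e, pow_orderOf_eq_one]
  refine fit2_of_gd hp (top p hp z ⟨n, hz1⟩ fun y => ?_)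
  have hx : x ∈ closure ({x, y} : Set G) := subset_closure (Set.mem_insert _ _)
  have hz2 : z ∈ closure ({x, y} : Set G) := zpowers_le.2 hx hz
  have hz3 : (⟨z, hz2⟩ : closure ({x, y} : Set G)) ∈ fit2 (closure ({x, y} : Set G)) := by
    obtain ⟨m, rfl⟩ := hz
    exact zpow_mem (k y hx) m
  refine fin_gd_res (fin_gd_sub (gd_of_fit2 hp ⟨n, Subtype.ext hz1⟩ hz3))
    ((closure_le _).2 ?_) (subset_closure (Set.mem_insert _ _))
  rintro _ (rfl | rfl)
  · exact hz2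
  · exact subset_closure (Set.mem_insert_of_mem _ rfl)

end Cfsg.Lib.FF2
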