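import Cfsg.Agent.FF2.TIN

/-! Elements normalising a maximal member. -/

set_option autoImplicit false

namespace Cfsg.Lib.FF2

open Subgroup Cfsg.Lib.Solv
open scoped commutatorElement

variable {G : Type*} [Group G] [Finite G]
variable {D E H S T : Subgroup G} {g x : G} {p q : ℕ}

omit [Finite G] in
theorem eq_one_of_comm {w y z : G} (c : (orderOf w).Coprime p) (k : Commute w y) (e : z = w * y)
    (hy : y ^ p = 1) (hz : z ^ p = 1) : w = 1 :=
  eq_one_of_pow c (n := 1) (by rwa [e, k.mul_pow, hy, mul_one, ← pow_one p] at hz)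

theorem Hy.nh (h : Hy p x) (hS : Maximal (Mb p x) S) (hS' : Maximal (Mb p (g * x * g⁻¹)) S)
    (hc : Commute x (g * x * g⁻¹)) : g ∈ Nm S := by
  have xS := hS.1.nm (mem_zpowers x)
  have xS' := hS'.1.nm (mem_zpowers _)
  obtain ⟨a, ha, na⟩ : ∃ a ∈ S, ¬ Commute x (a * (g * x * g⁻¹) * a⁻¹) := by
    by_contra k
    push Not at k
    refine hS.1.ne (hS.1.cm.symm.trans (comm_eq_bot.2 ?_))
    rw [← hS'.1.cm]
    refine commutator_le.2 ?_
    rintro s hs _ ⟨n, rfl⟩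
    rw [mem_cn_zp, commutatorElement_def]
    refine Commute.mul_right ?_ (hc.zpow_right n).inv_right
    simpa only [conj_zpow] using (k s hs).zpow_right n
  have e3 : a * g * x * (a * g)⁻¹ = a * (g * x * g⁻¹) * a⁻¹ := by group
  have h3 := h.cj (a * g)
  have aS : FF2.cj a S = S := cj_eq_iff.2 (le_normalizer ha)
  have m3 : Maximal (Mb p (a * g * x * (a * g)⁻¹)) S := by
    simpa only [aS, e3] using mx_cj (g := a) hS'
  rw [← e3] at na
  have wS : a * g * x * (a * g)⁻¹ * x * (a * g * x * (a * g)⁻¹)⁻¹ * x⁻¹ ∈ S := by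
    rw [e3]
    generalize g * x * g⁻¹ = y at hc xS'
    have : a * y * a⁻¹ * x * (a * y * a⁻¹)⁻¹ * x⁻¹ =
        a * (y * (a⁻¹ * (x * a * x⁻¹)) * y⁻¹) * (x * a⁻¹ * x⁻¹) := by
      calc _ = a * y * a⁻¹ * x * a * (y⁻¹ * x⁻¹) * x * a⁻¹ * x⁻¹ := by group
        _ = _ := by rw [← hc.inv_inv.eq]; group
    rw [this]
    exact mul_mem (mul_mem ha (nm_cj xS' (mul_mem (inv_mem ha) (nm_cj xS ha))))
      (nm_cj xS (inv_mem ha))
  suffices a * g ∈ Nm S from (mul_mem_cancel_left (le_normalizer ha)).1 this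
  generalize a * g = y at *
  have yH : y ∈ closure {x, y} := subset_closure (by simp)
  obtain ⟨K, Y, z⟩ := h.ky (h.two y) (subset_closure (by simp))
  have zY := nm_cj (z.ny yH) z.xy
  set t := y * x * y⁻¹ with ht
  have wK : t * x * t⁻¹ * x⁻¹ ∈ K := z.mem _ (mul_mem (mul_mem (mul_mem zY z.xy) (inv_mem zY))
    (inv_mem z.xy)) (cop_ord hS.1.cop wS)
  have w1 : t * x * t⁻¹ * x⁻¹ ≠ 1 := fun e => na (by
    rw [mul_inv_eq_one, mul_inv_eq_iff_eq_mul] at e; exact e.symm)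
  have wc := cop_ord hS.1.cop wS
  have n1 : zpowers x ≤ Nm (K ⊓ S) := fun _ k => nm_inf (z.xk k) (hS.1.nm k)
  have tK : zpowers t ≤ Nm K := zpowers_le.2 (z.nk (z.yh zY))
  have n3 : zpowers t ≤ Nm (K ⊓ S) := fun _ k => nm_inf (tK k) (m3.1.nm k)
  have nl := nil_of_le z.nil (inf_le_left (b := S))
  have cp := cop_of_le z.cop (inf_le_left (b := S))
  have m1 := h.mb_cm nl cp n1 fun e => w1 (eq_one_of_comm wc
    (mem_cn_zp.1 (comm_eq_bot.1 e ⟨wK, wS⟩)).symm (z := t * x * t⁻¹) (by group) h.xp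
    (h.cj t).xp)
  have m2 := h3.mb_cm nl cp n3 fun e => w1 (inv_eq_one.1 (eq_one_of_comm (by rwa [orderOf_inv])
    (mem_cn_zp.1 (comm_eq_bot.1 e ⟨wK, wS⟩)).symm.inv_left (z := x * t * x⁻¹) (by group) h3.xp
    (h3.cj x).xp))
  have l1 : ⁅K ⊓ S, zpowers x⁆ ≤ ⁅K, zpowers x⁆ := commutator_mono inf_le_left le_rfl
  have mK := h.mb_cm z.nil z.cop z.xk fun e => m1.ne (le_bot_iff.1 (l1.trans_eq e))
  obtain ⟨U, u1, u2⟩ := mK.ex
  rw [← h.ti hS u2 m1 ((comm_le n1).trans inf_le_right) (l1.trans u1)] at u1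
  refine cj_eq_iff.1 (h3.ti (mx_cj hS) m3 m2 ?_ ((comm_le n3).trans inf_le_right))
  refine (commutator_mono inf_le_left le_rfl).trans (le_trans (le_of_eq ?_) (cj_mono u1))
  rw [cj_comm, cj_zp, cj_eq_iff.2 (z.nk yH)]

theorem Hy.cinv (h : Hy p x) (hS : Maximal (Mb p x) S) (hc : Commute x g) : g ∈ Nm S := by
  have e : g * x * g⁻¹ = x := by rw [← hc.eq, mul_inv_cancel_right]
  exact h.nh hS (by rwa [e]) (by rw [e])

end Cfsg.Lib.FF2
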