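import Cfsg.Agent.FF2.Sy
import Cfsg.Agent.S0199

/-! There are at least two maximal members. -/

set_option autoImplicit false

namespace Cfsg.Lib.FF2

open Subgroup Cfsg.Lib.Solv
open scoped commutatorElement

variable {G : Type*} [Group G] [Finite G]
variable {A D E H K L Q R S T U : Subgroup G} {a g h k x y z : G} {p q : ℕ}

namespace OneA

/-- the join of the maximal members of the conjugates of `x` in `R` -/
def W (x : G) (S R : Subgroup G) : Subgroup G :=
  closure {a | ∃ g : G, g * x * g⁻¹ ∈ R ∧ a ∈ cj g S}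

/-- the normal closure of `y` in `R` -/
def NC (R : Subgroup G) (y : G) : Subgroup G := closure {a | ∃ r ∈ R, a = r * y * r⁻¹}

omit [Finite G] in
theorem le_W (l : g * x * g⁻¹ ∈ R) : cj g S ≤ W x S R := fun _ ha => subset_closure ⟨g, l, ha⟩

omit [Finite G] in
theorem W_le (l : ∀ g : G, g * x * g⁻¹ ∈ R → cj g S ≤ L) : W x S R ≤ L :=
  (closure_le _).2 fun _ ⟨g, h1, h2⟩ => l g h1 h2

theorem nm_W (l : k ∈ Nm R) : k ∈ Nm (W x S R) := by
  have : W x S R ≤ cj k⁻¹ (W x S R) := W_le fun g hg => by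
    rw [← cj_le_cj (g := k), cj_cj_inv, cj_cj]
    exact le_W (by simpa [mul_assoc] using nm_cj l hg)
  exact mem_nm fun a ha => by simpa using mem_cj.1 (this ha)

omit [Finite G] in
theorem NC_le (l : y ∈ R) : NC R y ≤ R :=
  (closure_le _).2 fun _ ⟨_, h1, h2⟩ => h2 ▸ mul_mem (mul_mem h1 l) (inv_mem h1)

omit [Finite G] in
theorem mem_NC : y ∈ NC R y := subset_closure ⟨1, one_mem _, by simp⟩

theorem nm_NC : R ≤ Nm (NC R y) := fun k hk => by
  have : NC R y ≤ cj k⁻¹ (NC R y) := (closure_le _).2 fun _ ⟨r, h1, h2⟩ => by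
    rw [SetLike.mem_coe, mem_cj, h2]
    exact subset_closure ⟨k * r, mul_mem hk h1, by simp [mul_assoc]⟩
  exact mem_nm fun a ha => by simpa using mem_cj.1 (this ha)

theorem zp_eq (n : Group.IsNilpotent R) (l : y ∈ R) (e : NC R y = R) : zpowers y = R := by
  by_contra c
  have hK : zpowers y < R := lt_of_le_of_ne (zpowers_le.2 l) c
  obtain ⟨Y, hKY, hY⟩ := (Set.toFinite {Y : Subgroup G | Y < R}).exists_le_maximal hK
  have h1 : R ≤ Nm Y := by
    have h2 := PG.lt_inf_normalizer_of_isNilpotent n hY.prop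
    by_contra h3
    have h4 : R ⊓ Nm Y < R := lt_of_le_of_ne inf_le_left fun e => h3 (inf_eq_left.1 e)
    exact h2.ne (hY.eq_of_le h4 h2.le)
  have : NC R y ≤ Y := (closure_le _).2 fun _ ⟨r, h2, h3⟩ =>
    h3 ▸ nm_cj (h1 h2) (hKY (mem_zpowers y))
  exact hY.prop.not_ge (e ▸ this)

theorem mem_le (u : ∀ T, Maximal (Mb p x) T → T = S) (m : Mb p (g * x * g⁻¹) D) :
    D ≤ cj g S := by
  obtain ⟨T, l, hT⟩ := m.ex
  have := u (cj g⁻¹ T) (by simpa [mul_assoc] using mx_cj (g := g⁻¹) hT)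
  rw [← this, cj_cj_inv]; exact l

omit [Finite G] in
theorem mb_of (m : Mb p y D) (e : zpowers y = zpowers z) : Mb p z D :=
  ⟨m.ne, m.nil, m.cop, e ▸ m.nm, e ▸ m.cm⟩

theorem claim (h : Hy p x) (hS : Maximal (Mb p x) S) (u : ∀ T, Maximal (Mb p x) T → T = S)
    (n : ℕ) : ∀ R : Subgroup G, Nat.card R = n → IsPGroup p R →
      Group.IsNilpotent (W x S R) ∧ (Nat.card (W x S R)).Coprime p := by
  have := Fact.mk h.pp
  induction n using Nat.strong_induction_on with
  | _ n ih =>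
  intro R hn hR
  by_cases c : ∃ g : G, g * x * g⁻¹ ∈ R ∧ NC R (g * x * g⁻¹) = R
  · obtain ⟨g, l, e⟩ := c
    have e1 := zp_eq hR.isNilpotent l e
    have : W x S R ≤ cj g S := W_le fun k hk => by
      refine mem_le u (mb_of hS.1.cj ?_)
      exact eq_of_le_of_card_ge (e1 ▸ zpowers_le.2 hk) (by rw [(h.cj g).czp, (h.cj k).czp])
    exact ⟨nil_of_le (hS.1.cj (g := g)).nil this, cop_of_le (hS.1.cj (g := g)).cop this⟩
  push Not at c
  have i1 : ∀ g : G, g * x * g⁻¹ ∈ R → Group.IsNilpotent (W x S (NC R (g * x * g⁻¹))) ∧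
      (Nat.card (W x S (NC R (g * x * g⁻¹)))).Coprime p := fun g l =>
    ih _ (hn ▸ card_lt_of_lt (lt_of_le_of_ne (NC_le l) (c g l))) _ rfl (hR.to_le (NC_le l))
  have i2 : ∀ y : G, R ≤ Nm (W x S (NC R y)) := fun y r hr => nm_W (nm_NC hr)
  have i3 : ∀ g k : G, g * x * g⁻¹ ∈ R → k * x * k⁻¹ ∈ R →
      W x S (NC R (k * x * k⁻¹)) ≤ Nm (W x S (NC R (g * x * g⁻¹))) := fun g k l m => by
    have cm : ⁅W x S (NC R (k * x * k⁻¹)), NC R (g * x * g⁻¹)⁆ ≤ W x S (NC R (g * x * g⁻¹)) := by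
      have : ∀ b ∈ NC R (g * x * g⁻¹), ∀ w ∈ W x S (NC R (k * x * k⁻¹)),
          ⁅w, b⁆ ∈ W x S (NC R (g * x * g⁻¹)) := by
        intro b hb
        induction hb using closure_induction'' with
        | mem b hb =>
          obtain ⟨r, h1, rfl⟩ := hb
          intro w hw
          have e : r * (g * x * g⁻¹) * r⁻¹ = r * g * x * (r * g)⁻¹ := by simp [mul_assoc]
          have l2 : r * g * x * (r * g)⁻¹ ∈ NC R (g * x * g⁻¹) := subset_closure ⟨r, h1, e.symm⟩
          rw [e]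
          have hc := commutator_mem_commutator hw (mem_zpowers (r * g * x * (r * g)⁻¹))
          by_cases z : ⁅W x S (NC R (k * x * k⁻¹)), zpowers (r * g * x * (r * g)⁻¹)⁆ = ⊥
          · rw [z, mem_bot] at hc; rw [hc]; exact one_mem _
          · exact le_W l2 (mem_le u ((h.cj (r * g)).mb_cm (i1 k m).1 (i1 k m).2
              (zpowers_le.2 (i2 _ (NC_le l l2))) z) hc)
        | inv_mem b hb =>
          obtain ⟨r, h1, rfl⟩ := hb
          intro w hw
          have e : r * (g * x * g⁻¹) * r⁻¹ = r * g * x * (r * g)⁻¹ := by simp [mul_assoc]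
          have l2 : r * g * x * (r * g)⁻¹ ∈ NC R (g * x * g⁻¹) := subset_closure ⟨r, h1, e.symm⟩
          rw [e]
          have hc := commutator_mem_commutator hw (inv_mem (mem_zpowers (r * g * x * (r * g)⁻¹)))
          by_cases z : ⁅W x S (NC R (k * x * k⁻¹)), zpowers (r * g * x * (r * g)⁻¹)⁆ = ⊥
          · rw [z, mem_bot] at hc; rw [hc]; exact one_mem _
          · exact le_W l2 (mem_le u ((h.cj (r * g)).mb_cm (i1 k m).1 (i1 k m).2
              (zpowers_le.2 (i2 _ (NC_le l l2))) z) hc)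
        | one => intro w _; simp
        | mul a b ha hb h1 h2 =>
          intro w hw
          have e : ⁅w, a * b⁆ = ⁅w, a⁆ * (a * ⁅w, b⁆ * a⁻¹) := by
            simp [commutatorElement_def, mul_assoc]
          rw [e]
          exact mul_mem (h1 w hw) (nm_cj (i2 _ (NC_le l ha)) (h2 w hw))
      exact commutator_le.2 fun w hw b hb => this b hb w hw
    refine le_of_decomp (A := NC R (g * x * g⁻¹)) ((NC_le l).trans (i2 _))
      (pg_cop (hR.to_le (NC_le l)) (i1 k m).2.symm) (i1 k m).1 (cm.trans le_normalizer)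
      fun w _ hw => nm_W (cn_le_nm hw)
  have i4 : ∀ g : G, g * x * g⁻¹ ∈ R → W x S R ≤ Nm (W x S (NC R (g * x * g⁻¹))) := fun g l =>
    W_le fun k m => (le_W mem_NC).trans (i3 g k l m)
  have i5 : ∀ g : G, g * x * g⁻¹ ∈ R → W x S (NC R (g * x * g⁻¹)) ≤ W x S R := fun g l =>
    W_le fun k m => le_W (NC_le l m)
  obtain ⟨M, -, hM⟩ := Finite.exists_le_maximal (p := fun M : Subgroup G => Group.IsNilpotent M ∧
    (Nat.card M).Coprime p ∧ W x S R ≤ Nm M ∧ M ≤ W x S R) (a := ⊥)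
    ⟨inferInstance, by simp, fun _ _ => mem_nm (by simp), bot_le⟩
  obtain ⟨m1, m2, m3, m4⟩ := hM.prop
  have : W x S R ≤ M := W_le fun g l => by
    refine (le_W mem_NC).trans (le_sup_right.trans (hM.2 (y := M ⊔ W x S (NC R (g * x * g⁻¹)))
      ⟨isNilpotent_sup_of_le_normalizer m1 (i1 g l).1 (m4.trans (i4 g l)) ((i5 g l).trans m3),
        (FT.coprime_card_sup ((i5 g l).trans m3) m2.symm (i1 g l).2.symm).symm,
        fun w hw => nm_sup (m3 hw) (i4 g l hw), sup_le m4 (i5 g l)⟩ le_sup_left))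
  exact ⟨nil_of_le m1 this, cop_of_le m2 this⟩

end OneA

open OneA in
theorem Hy.not_one (h : Hy p x) :
    ∃ S T, Maximal (Mb p x) S ∧ Maximal (Mb p x) T ∧ S ≠ T := by
  by_contra c
  obtain ⟨S, hS⟩ := h.ex
  have u : ∀ T, Maximal (Mb p x) T → T = S := fun T hT => by
    by_contra e
    exact c ⟨T, S, hT, hS, e⟩
  have k1 : ∀ g : G, Group.IsNilpotent (S ⊔ FF2.cj g S : Subgroup G) := fun g => by
    obtain ⟨D, s, -, h2, h3, h4⟩ := h.sy g
    have hs : s ∈ S := by
      rcases h2 with rfl | h2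
      · rw [mem_bot.1 h3]; exact one_mem _
      · have := mem_le (g := 1) u (by simpa using h2)
        rw [cj_one] at this
        exact this h3
    have n := (claim h hS u _ _ rfl h4).1
    have l : S ⊔ FF2.cj (s * g) S ≤ W x S (closure {x, s * (g * x * g⁻¹) * s⁻¹}) := by
      refine sup_le ?_ (le_W (subset_closure (by simp [mul_assoc])))
      have := le_W (x := x) (S := S) (g := 1) (R := closure {x, s * (g * x * g⁻¹) * s⁻¹})
        (subset_closure (by simp))
      rwa [cj_one] at this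
    have n2 := cj_nil (g := s⁻¹) (nil_of_le n l)
    rwa [cj_sup, cj_cj, inv_mul_cancel_left, cj_eq_iff.2 (inv_mem (le_normalizer hs))] at n2
  obtain ⟨q, hq, dv⟩ := Nat.exists_prime_and_dvd (n := Nat.card S)
    (fun e => hS.1.ne (eq_bot_of_card_eq S e))
  have := Fact.mk hq
  obtain ⟨a, ha⟩ := exists_prime_orderOf_dvd_card' q dv
  have pa : IsPGroup q (zpowers (a : G)) :=
    IsPGroup.of_card (n := 1) (by rw [Nat.card_zpowers, Subgroup.orderOf_coe, ha, pow_one])
  obtain ⟨N, n1, n2, n3⟩ := Cfsg.Agent.S0199.result (zpowers (a : G)) pa fun g =>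
    (qp_pg (q := q) (k1 g)).to_le (sup_le
      (le_qp pa ((zpowers_le.2 a.2).trans le_sup_left))
      (le_qp (cj_pg (g := g) pa) ((cj_mono (zpowers_le.2 a.2)).trans le_sup_right)))
  have e : (a : G) = 1 := mem_bot.1 (h.nf N n1 n2.isNilpotent ▸ n3 (mem_zpowers _))
  have : a = 1 := Subtype.ext e
  rw [this, orderOf_one] at ha
  exact hq.one_lt.ne ha

end Cfsg.Lib.FF2
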