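import Cfsg.Agent.FF2.NH

/-! Commuting conjugates have the same maximal members. -/

set_option autoImplicit false

namespace Cfsg.Lib.FF2

open Subgroup Cfsg.Lib.Solv

variable {G : Type*} [Group G] [Finite G]
variable {A D E H K L Q R S T U : Subgroup G} {a g h x : G} {p q : ℕ}

theorem Hy.cfix (h : Hy p x) (hS : Maximal (Mb p x) S) (hT : Maximal (Mb p x) T) (ne : S ≠ T)
    (hc : Commute x (g * x * g⁻¹)) (hU : Maximal (Mb p x) U) :
    U ⊓ Cn (zpowers (g * x * g⁻¹)) ≤ Cn (zpowers x) := by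
  by_contra k
  rw [← comm_eq_bot] at k
  have xc : x ∈ Cn (zpowers (g * x * g⁻¹)) := mem_cn_zp.2 hc.symm
  have nm : zpowers x ≤ Nm (U ⊓ Cn (zpowers (g * x * g⁻¹))) :=
    zpowers_le.2 (nm_inf (hU.1.nm (mem_zpowers x)) (le_normalizer xc))
  have hD := h.mb_cm (nil_of_le hU.1.nil inf_le_left) (cop_of_le hU.1.cop inf_le_left) nm k
  have key : ∀ S', Maximal (Mb p (g * x * g⁻¹)) S' → S' ≤ Nm U := fun S' hS' => by
    have c : Cn (zpowers (g * x * g⁻¹)) ≤ Nm S' := fun a ha => (h.cj g).cinv hS' (mem_cn_zp.1 ha)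
    have n := zpowers_le.2 (c xc)
    refine le_of_decomp n (h.cop hS'.1.cop) hS'.1.nil ?_ fun a _ ha => h.cinv hU (mem_cn_zp.1 ha)
    by_cases e : ⁅S', zpowers x⁆ = ⊥
    · rw [e]; exact bot_le
    · exact (h.le_of_link hU (h.nm_ne hS'.1.ne hS'.1.nil) (c xc) hD
        (h.mb_cm hS'.1.nil hS'.1.cop n e) ((comm_le nm).trans inf_le_left)
        (((comm_le nm).trans inf_le_right).trans c) ((comm_le n).trans le_normalizer)).trans
        le_normalizer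
  exact ne (cj_inj.1 ((h.cj g).link (mx_cj hS) (mx_cj hT) (h.nm_ne hU.1.ne hU.1.nil) (h.cinv hU hc)
    (mx_cj hS).1 (mx_cj hT).1 le_rfl (key _ (mx_cj hS)) le_rfl (key _ (mx_cj hT))))

theorem Same.mb (h : Hy p x) (hS : Maximal (Mb p x) S) (hT : Maximal (Mb p x) T) (ne : S ≠ T)
    (hc : Commute x (g * x * g⁻¹)) (hU : Maximal (Mb p x) U) : Mb p (g * x * g⁻¹) U := by
  have nm : zpowers (g * x * g⁻¹) ≤ Nm U := zpowers_le.2 (h.cinv hU hc)
  refine ⟨hU.1.ne, hU.1.nil, hU.1.cop, nm, le_antisymm (comm_le nm)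
    (hU.1.cm.symm.trans_le (commutator_le.2 fun u hu y hy => ?_))⟩
  obtain ⟨s, hs, t, ht, ht', rfl⟩ := decomp nm ((h.cj g).cop hU.1.cop) hU.1.nil hu
  have e : y * t = t * y := h.cfix hS hT ne hc hU ⟨ht, ht'⟩ y hy
  have yc : y ∈ Cn (zpowers (g * x * g⁻¹)) := zpowers_le.2 (mem_cn_zp.2 hc.symm) hy
  rw [commutatorElement_def, show s * t * y * (s * t)⁻¹ * y⁻¹ = s * (t * y * t⁻¹ * s⁻¹ * y⁻¹) by group,
    ← e, mul_inv_cancel_right]
  exact mul_mem hs (nm_cj (nm_comm (hU.1.nm hy) (cn_le_nm yc)) (inv_mem hs))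

theorem Hy.same (h : Hy p x) (hS : Maximal (Mb p x) S) (hT : Maximal (Mb p x) T) (ne : S ≠ T)
    (hc : Commute x (g * x * g⁻¹)) (hU : Maximal (Mb p x) U) :
    Maximal (Mb p (g * x * g⁻¹)) U := by
  refine ⟨Same.mb h hS hT ne hc hU, fun D hD l => ?_⟩
  obtain ⟨S', l', hS'⟩ := hD.ex
  have e : g⁻¹ * (g * x * g⁻¹) * g⁻¹⁻¹ = x := by group
  have := Same.mb (g := g⁻¹) (h.cj g) (mx_cj hS) (mx_cj hT) (fun k => ne (cj_inj.1 k))
    (by rw [e]; exact hc.symm) hS'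
  rw [e] at this
  exact l'.trans (hU.2 this (l.trans l'))

end Cfsg.Lib.FF2
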