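import Cfsg.Agent.FF2.Kit
import Cfsg.Agent.S0199

/-! Conjugates of `x` generate `p`-groups with `x` after an adjustment; members exist. -/

set_option autoImplicit false

namespace Cfsg.Lib.FF2

open Subgroup Cfsg.Lib.Solv

variable {G : Type*} [Group G] [Finite G]
variable {H K Y : Subgroup G} {x : G} {p : ℕ}

namespace Sy

theorem split [Fact p.Prime] (z : KY p H x K Y) (P : Sylow p Y) (y : Y) :
    ∃ t ∈ (P : Subgroup Y), ((t⁻¹ * y : Y) : G) ∈ K := by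
  have : (K.subgroupOf Y).Normal := ⟨fun a ha b => nm_cj (D := K) (z.nk (z.yh b.2)) ha⟩
  have q : IsPGroup p (Y ⧸ K.subgroupOf Y) := fun a => by
    obtain ⟨a, rfl⟩ := QuotientGroup.mk_surjective a
    obtain ⟨n, hn⟩ := z.pw a a.2
    exact ⟨n, by rw [← QuotientGroup.mk_pow, QuotientGroup.eq_one_iff]; exact hn⟩
  have e := (P.mapSurjective (QuotientGroup.mk'_surjective (K.subgroupOf Y))).is_maximal'
    (q.to_subgroup ⊤) le_top
  obtain ⟨t, ht, e'⟩ := e.le (mem_top (QuotientGroup.mk y))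
  exact ⟨t, ht, (QuotientGroup.eq (s := K.subgroupOf Y)).1 e'⟩

theorem zp {X : Type*} [Group X] {a : X} (h : a ^ p = 1) : IsPGroup p (zpowers a) := by
  rintro ⟨_, n, rfl⟩
  exact ⟨1, Subtype.ext (by
    change (a ^ n) ^ p ^ 1 = 1
    rw [pow_one, ← zpow_natCast, ← zpow_mul, mul_comm, zpow_mul, zpow_natCast, h, one_zpow])⟩

end Sy

theorem Hy.sy (h : Hy p x) (g : G) : ∃ (D : Subgroup G) (s : G), D ≤ closure {x, g} ∧
    (D = ⊥ ∨ Mb p x D) ∧ s ∈ D ∧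
      IsPGroup p (closure {x, s * (g * x * g⁻¹) * s⁻¹} : Subgroup G) := by
  have := Fact.mk h.pp
  obtain ⟨K, Y, z⟩ := h.ky (h.two g) (subset_closure (Or.inl rfl))
  have x' : g * x * g⁻¹ ∈ Y := nm_cj (z.ny (subset_closure (Or.inr rfl))) z.xy
  obtain ⟨P, hP⟩ := (Sy.zp (a := (⟨x, z.xy⟩ : Y)) (Subtype.ext h.xp)).exists_le_sylow
  obtain ⟨P', hP'⟩ := (Sy.zp (a := (⟨_, x'⟩ : Y)) (Subtype.ext (h.cj g).xp)).exists_le_sylow
  obtain ⟨y, e⟩ := MulAction.exists_smul_eq Y P' P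
  obtain ⟨t, ht, hk⟩ := Sy.split z P y
  have m : y * ⟨_, x'⟩ * y⁻¹ ∈ (P : Subgroup Y) := e ▸ ⟨_, hP' (mem_zpowers _), rfl⟩
  obtain ⟨s, hs, c, -, hc, e'⟩ := decomp z.xk (h.cop z.cop) z.nil (inv_mem hk)
  refine ⟨⁅K, zpowers x⁆, s⁻¹, (comm_le z.xk).trans (z.ky.trans z.yh), or_iff_not_imp_left.2
    (h.mb_cm z.nil z.cop z.xk), inv_mem hs,
    (cj_pg (g := c) (P.isPGroup'.map Y.subtype)).to_le ((closure_le _).2 ?_)⟩
  rintro _ (rfl | rfl)
  · exact ⟨_, ⟨_, hP (mem_zpowers _), rfl⟩, mul_inv_eq_of_eq_mul (mem_cn_zp.1 hc).eq.symm⟩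
  · refine ⟨_, ⟨_, mul_mem (mul_mem (inv_mem ht) m) ht, rfl⟩, ?_⟩
    rw [← mul_inv_eq_iff_eq_mul.2 e']
    simp [mul_assoc]

theorem Hy.ex (h : Hy p x) : ∃ S, Maximal (Mb p x) S := by
  have := Fact.mk h.pp
  by_contra c
  obtain ⟨N, n1, n2, n3⟩ := Cfsg.Agent.S0199.result (zpowers x) (Sy.zp h.xp) fun g => by
    obtain ⟨D, s, -, rfl | d, hs, k⟩ := h.sy g
    · rw [mem_bot.1 hs, one_mul, inv_one, mul_one] at k
      exact k.to_le (sup_le (zpowers_le.2 (subset_closure (Or.inl rfl)))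
        (cj_zp.trans_le (zpowers_le.2 (subset_closure (Or.inr rfl)))))
    · exact (c (d.ex.imp fun _ e => e.2)).elim
  exact h.ne1 (mem_bot.1 (h.nf N n1 n2.isNilpotent ▸ n3 (mem_zpowers x)))

end Cfsg.Lib.FF2
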