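import Cfsg.Agent.FF2.TIN
import Cfsg.Agent.FF2.NH
import Cfsg.Agent.FF2.Sy
import Cfsg.Agent.FF2.One
import Cfsg.Agent.FF2.Same
import Cfsg.Agent.FF2.Cen
import Cfsg.Agent.S0042
import Cfsg.Agent.S0034
import Cfsg.Agent.Solv.Fitting

/-! The minimal counterexample does not exist: the common normaliser of the maximal members
is a Frobenius complement. -/

set_option autoImplicit false

namespace Cfsg.Lib.FF2

open Subgroup Cfsg.Lib.Solv

variable {G : Type*} [Group G] [Finite G]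
variable {A D E H K L Q R S T U V : Subgroup G} {a g h k u x : G} {p q : ℕ}

namespace Frob

/-- the common normaliser of the maximal members -/
def MM (p : ℕ) (x : G) : Subgroup G := ⨅ S : {S : Subgroup G // Maximal (Mb p x) S}, Nm S.1

omit [Finite G] in
theorem mem_MM : g ∈ MM p x ↔ ∀ S, Maximal (Mb p x) S → g ∈ Nm S := by
  simp only [MM, mem_iInf, Subtype.forall]

omit [Finite G] in
theorem x_nm (hS : Maximal (Mb p x) S) : x ∈ Nm S := hS.1.nm (mem_zpowers x)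

omit [Finite G] in
theorem x_mem : x ∈ MM p x := mem_MM.2 fun _ hS => x_nm hS

omit [Finite G] in
theorem MM_le (hS : Maximal (Mb p x) S) : MM p x ≤ Nm S := fun _ k => mem_MM.1 k S hS

theorem pa (h : Hy p x) (hS : Maximal (Mb p x) S) (hT : Maximal (Mb p x) T) (ne : S ≠ T)
    (k : IsPGroup p (closure {x, g * x * g⁻¹} : Subgroup G)) : g ∈ MM p x :=
  have hc : Commute x (g * x * g⁻¹) :=
    h.cen hS hT ne k (subset_closure (by simp)) _ (subset_closure (by simp))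
  mem_MM.2 fun _ hU => h.nh hU (h.same hS hT ne hc hU) hc

theorem sy' (h : Hy p x) (hS : Maximal (Mb p x) S) (hT : Maximal (Mb p x) T) (ne : S ≠ T)
    (g : G) : g ∈ MM p x ∨ ∃ (D : Subgroup G) (s : G), D ≤ closure {x, g} ∧ Mb p x D ∧ s ∈ D ∧
      s * g ∈ MM p x := by
  obtain ⟨D, s, h1, h2, h3, h4⟩ := h.sy g
  have : s * g ∈ MM p x := pa h hS hT ne (by
    rwa [show s * g * x * (s * g)⁻¹ = s * (g * x * g⁻¹) * s⁻¹ by group])
  rcases h2 with rfl | h2
  · left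
    rwa [mem_bot.1 h3, one_mul] at this
  · exact .inr ⟨D, s, h1, h2, h3, this⟩

theorem pb (h : Hy p x) (hS : Maximal (Mb p x) S) (hT : Maximal (Mb p x) T) (ne : S ≠ T)
    (g : G) : ∃ U, Maximal (Mb p x) U ∧ g ∈ Nm U := by
  rcases sy' h hS hT ne g with k | ⟨D, s, -, h2, h3, h4⟩
  · exact ⟨S, hS, MM_le hS k⟩
  · obtain ⟨U, l, hU⟩ := h2.ex
    exact ⟨U, hU, (mul_mem_cancel_left (le_normalizer (l h3))).1 (MM_le hU h4)⟩

theorem pc (h : Hy p x) (hS : Maximal (Mb p x) S) (hT : Maximal (Mb p x) T) (ne : S ≠ T)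
    (g1 : g ∈ Nm S) (g2 : g ∈ Nm T) : g ∈ MM p x := by
  rcases sy' h hS hT ne g with k | ⟨D, s, h1, h2, -, -⟩
  · exact k
  · have key : ∀ U, Maximal (Mb p x) U → g ∈ Nm U → D ≤ U := fun U hU gU =>
      h.le_of_link hU (h.nm_ne hU.1.ne hU.1.nil) (x_nm hU) hU.1 h2 le_rfl le_normalizer
        (h1.trans ((closure_le _).2 (Set.pair_subset (x_nm hU) gU)))
    exact absurd (h.ti hS hT h2 (key S hS g1) (key T hT g2)) ne

theorem pd1 (h : Hy p x) (hS : Maximal (Mb p x) S) (hT : Maximal (Mb p x) T) (ne : S ≠ T)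
    (hU : Maximal (Mb p x) U) (hu : u ∈ MM p x) (hg : g ∉ MM p x) (gU : g ∈ Nm U)
    (c : g * u * g⁻¹ ∈ MM p x) (hk : k ∉ Nm U) : k * u * k⁻¹ ∈ MM p x := by
  obtain ⟨V, hV, kV⟩ := pb h hS hT ne k
  obtain ⟨W, hW, kW⟩ := pb h hS hT ne (k * g⁻¹)
  have n1 : U ≠ V := fun e => hk (e ▸ kV)
  have n2 : V ≠ W := fun e => hg (pc h hU hV n1 gU
    (inv_mem_iff.1 ((mul_mem_cancel_left kV).1 (e ▸ kW))))
  refine pc h hV hW n2 (mul_mem (mul_mem kV (MM_le hV hu)) (inv_mem kV)) ?_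
  have := mul_mem (mul_mem kW (MM_le hW c)) (inv_mem kW)
  simpa [mul_assoc] using this

theorem pd (h : Hy p x) (hS : Maximal (Mb p x) S) (hT : Maximal (Mb p x) T) (ne : S ≠ T)
    (hu : u ∈ MM p x) (hg : g ∉ MM p x) (c : g * u * g⁻¹ ∈ MM p x) (k : G) :
    k * u * k⁻¹ ∈ MM p x := by
  obtain ⟨U, hU, gU⟩ := pb h hS hT ne g
  obtain ⟨k0, hk0⟩ : ∃ k0, k0 ∉ Nm U := by
    by_contra! c
    exact h.nm_ne hU.1.ne hU.1.nil (eq_top_iff.2 fun a _ => c a)
  obtain ⟨V, hV, kV⟩ := pb h hS hT ne k0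
  by_cases k1 : k ∈ Nm U
  · by_cases k2 : k ∈ Nm V
    · have := pc h hU hV (fun e => hk0 (e ▸ kV)) k1 k2
      exact mul_mem (mul_mem this hu) (inv_mem this)
    · exact pd1 h hS hT ne hV hu (fun e => hk0 (MM_le hU e)) kV
        (pd1 h hS hT ne hU hu hg gU c hk0) k2
  · exact pd1 h hS hT ne hU hu hg gU c k1

theorem nb (h : Hy p x) {N : Subgroup G} [N.Normal] (n : N ≤ Nm A) (k : Group.IsNilpotent A) :
    A ⊓ N = ⊥ := by
  have h1 : A.subgroupOf N ≤ fittingSubgroup N :=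
    le_fitting ((normal_subgroupOf_iff_le_normalizer_inf).2 fun g hg => by
      rw [inf_comm]
      exact nm_inf (le_normalizer hg) (n hg))
      (by
        rw [← isNilpotent_map_subtype_iff, subgroupOf_map_subtype]
        exact nil_of_le k inf_le_left)
  have h2 := (map_mono (f := N.subtype) h1).trans (map_fitting_le_of_normal N)
  rw [subgroupOf_map_subtype, h.nf (fittingSubgroup G) inferInstance
    (isNilpotent_of_le_fitting le_rfl)] at h2
  exact le_bot_iff.1 h2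

theorem nb' (h : Hy p x) {N : Subgroup G} [N.Normal] (n : N ≤ Nm A) (k : A ⊓ N = ⊥) :
    A ≤ Cn N :=
  comm_eq_bot.1 (le_bot_iff.1 ((le_inf (comm_le n) (commutator_le_right _ _)).trans_eq k))

theorem pe (h : Hy p x) (hS : Maximal (Mb p x) S) (hT : Maximal (Mb p x) T) (ne : S ≠ T) :
    (MM p x).normalCore = ⊥ := by
  by_contra c
  have := Fact.mk h.pp
  have l := (MM p x).normalCore_le
  have key : ∀ U, Maximal (Mb p x) U → U ≤ Cn (MM p x).normalCore := fun U hU =>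
    nb' h (l.trans (MM_le hU)) (nb h (l.trans (MM_le hU)) hU.1.nil)
  obtain ⟨K, Y, z⟩ := h.ky (ne_top_of_le (h.nm_ne hS.1.ne hS.1.nil) (MM_le hS)) x_mem
  have k1 := nb h (l.trans z.nk) z.nil
  have k2 : IsPGroup p (Y ⊓ (MM p x).normalCore : Subgroup G) := pg_of fun a ha =>
    (z.pw a ha.1).imp fun n e => mem_bot.1 (k1 ▸ ⟨e, pow_mem ha.2 _⟩)
  have k3 := nb h (N := (MM p x).normalCore)
    (fun g hg => nm_inf (z.ny (l hg)) (le_normalizer hg)) k2.isNilpotent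
  rw [inf_assoc, inf_idem] at k3
  exact ne (h.link hS hT (h.cn_ne c) (nb' h (l.trans z.ny) k3 z.xy) hS.1 hT.1 le_rfl (key S hS)
    le_rfl (key T hT))

end Frob

open Frob in
theorem Hy.elim (h : Hy p x) : False := by
  obtain ⟨S, T, hS, hT, ne⟩ := h.not_one
  have nt : MM p x ≠ ⊤ := ne_top_of_le (h.nm_ne hS.1.ne hS.1.nil) (MM_le hS)
  have hF : Cfsg.IsFrobeniusComplement (MM p x) := by
    refine ⟨fun e => h.ne1 (mem_bot.1 (e ▸ x_mem)), nt, fun g hg => eq_bot_iff.2 ?_⟩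
    rintro a ⟨h1, u, hu, rfl⟩
    have : u ∈ (MM p x).normalCore := fun k => pd h hS hT ne hu hg h1 k
    rw [pe h hS hT ne, mem_bot] at this
    subst this
    exact mem_bot.2 (map_one (MulAut.conj g))
  obtain ⟨N, e, n1, n2⟩ := Cfsg.Agent.S0042.result _ hF
  have := (Cfsg.Agent.S0034.result _ hF).1
  rw [← e, h.nf N n1 n2] at this
  exact nt (index_eq_one.1 (this.symm.trans card_bot))

end Cfsg.Lib.FF2
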