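import Cfsg.Agent.FF2.TI
import Cfsg.Agent.S3816
import Cfsg.Agent.S0199

/-! The trivial intersection property for odd `p`. -/

set_option autoImplicit false
set_option linter.unusedVariables false
set_option linter.unusedSectionVars false

namespace Cfsg.Lib.FF2

open Subgroup Cfsg.Lib.Solv

variable {G : Type*} [Group G] [Finite G]
variable {A D E H K L Q R S T U : Subgroup G} {a g h x : G} {p q : ℕ}

theorem Hy.h1 (h : Hy p x) [Fact q.Prime] (hq : q ≠ p) (U : Subgroup G) (ne : U ≠ ⊥)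
    (pg : IsPGroup q U) (nm : zpowers x ≤ Nm U) : ∃ O : Subgroup G, IsPGroup q O ∧
      O ≤ Nm U ∧ Nm U ≤ Nm O ∧ ∀ D, Mq q (zpowers x) D → D ≤ Nm U → D ≤ O := by
  obtain ⟨K, Y, z⟩ := h.ky (h.nm_ne ne pg.isNilpotent) (nm (mem_zpowers x))
  have c : q.Coprime p := (Nat.coprime_primes Fact.out h.pp).2 hq
  exact ⟨qp q K, qp_pg z.nil, qp_le.trans (z.ky.trans z.yh), fun g k => nm_qp (z.nk k),
    fun D m l => le_qp m.pg (z.le (m.mb c) l)⟩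

namespace Odd

/-- the subgroup `[s, x]` -/
def Dh (x s : G) : Subgroup G := closure {c | ∃ i : ℕ, c = s⁻¹ * (x ^ i * s * (x ^ i)⁻¹)}

theorem Dh_eq_1 : type_of% @Dh.eq_1 := @Dh.eq_1

theorem Dh_le {s : G} (hs : s ∈ S) (nm : zpowers x ≤ Nm S) : Dh x s ≤ S :=
  (closure_le _).2 (by
    rintro _ ⟨i, rfl⟩
    exact mul_mem (inv_mem hs) (nm_cj (nm (pow_mem (mem_zpowers x) i)) hs))

theorem Dh_nm (s : G) : x ∈ Nm (Dh x s) := by
  refine mem_nm fun a ha => ?_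
  refine ((closure_le ((Dh x s).comap (MulAut.conj x).toMonoidHom)).2 ?_ : Dh x s ≤ _) ha
  rintro _ ⟨i, rfl⟩
  have h1 : s⁻¹ * (x ^ 1 * s * (x ^ 1)⁻¹) ∈ Dh x s := subset_closure ⟨1, rfl⟩
  have h2 : s⁻¹ * (x ^ (i + 1) * s * (x ^ (i + 1))⁻¹) ∈ Dh x s := subset_closure ⟨i + 1, rfl⟩
  have h3 := mul_mem (inv_mem h1) h2
  change x * (s⁻¹ * (x ^ i * s * (x ^ i)⁻¹)) * x⁻¹ ∈ Dh x s
  convert h3 using 1
  group

theorem key (hp : p.Prime) (hx : x ^ p = 1) {s : G} (c : (Nat.card (Dh x s)).Coprime p) :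
    ∃ d ∈ Dh x s, d * x * d⁻¹ = s⁻¹ * x * s := by
  classical
  haveI := Fact.mk hp
  haveI := Fintype.ofFinite (Dh x s)
  let f : Equiv.Perm G := Equiv.mulLeft (s⁻¹ * x * s) * Equiv.mulRight x⁻¹
  have hf : ∀ g, f g = s⁻¹ * x * s * (g * x⁻¹) := fun g => rfl
  have h1 : s⁻¹ * (x ^ 1 * s * (x ^ 1)⁻¹) ∈ Dh x s := subset_closure ⟨1, rfl⟩
  have h2 : ∀ g, f g ∈ Dh x s ↔ g ∈ Dh x s := fun g => by
    have e : f g = s⁻¹ * (x ^ 1 * s * (x ^ 1)⁻¹) * (x * g * x⁻¹) := by rw [hf]; group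
    rw [e, mul_mem_cancel_left h1]
    exact (mem_normalizer_iff.1 (Dh_nm s) g).symm
  have h3 : ∀ (n : ℕ) g, (f ^ n) g = s⁻¹ * x ^ n * s * (g * (x ^ n)⁻¹) := fun n => by
    induction n with
    | zero => intro g; simp
    | succ n ih => intro g; rw [pow_succ', Equiv.Perm.mul_apply, ih, hf]; group
  have h4 : f.subtypePerm h2 ^ p ^ 1 = 1 := by
    ext g
    rw [pow_one, Equiv.Perm.subtypePerm_pow, Equiv.Perm.subtypePerm_apply]
    simp [h3, hx]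
  obtain ⟨d, hd⟩ := Equiv.Perm.exists_fixed_point_of_prime (α := Dh x s)
    (by rw [← Nat.card_eq_fintype_card]; exact hp.coprime_iff_not_dvd.1 c.symm) h4
  refine ⟨d, d.2, ?_⟩
  have h5 : s⁻¹ * x * s * ((d : G) * x⁻¹) = d := congrArg Subtype.val hd
  calc (d : G) * x * (d : G)⁻¹ = s⁻¹ * x * s * ((d : G) * x⁻¹) * x * (d : G)⁻¹ := by rw [h5]
    _ = _ := by group

theorem pair (h : Hy p x) [Fact q.Prime] (hq : q ≠ p) {s u : G} (pg : IsPGroup q (Dh x s))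
    (hu : u ∈ Cn (zpowers x)) : ∃ W : Subgroup G, IsPGroup q W ∧ Dh x s ≤ W ∧ u ∈ Nm W := by
  have c : q.Coprime p := (Nat.coprime_primes Fact.out h.pp).2 hq
  obtain ⟨d, hd, e⟩ := key h.pp h.xp (pg_cop pg c)
  obtain ⟨K, Y, z⟩ := h.ky (h.two (d * u)) (subset_closure (Set.mem_insert _ _))
  have hy : d * u ∈ closure ({x, d * u} : Set G) := subset_closure (by simp)
  have h1 : s⁻¹ * x * s ∈ Y := by
    have := nm_cj (z.ny hy) z.xy
    rwa [show d * u * x * (d * u)⁻¹ = d * (u * x * u⁻¹) * d⁻¹ by group, ← (mem_cn_zp.1 hu).eq,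
      mul_inv_cancel_right, e] at this
  have h2 : Dh x s ≤ Y := (closure_le _).2 (by
    rintro _ ⟨i, rfl⟩
    have := mul_mem (pow_mem h1 i) (inv_mem (pow_mem z.xy i))
    rw [show s⁻¹ * x * s = s⁻¹ * x * s⁻¹⁻¹ by rw [inv_inv], conj_pow, inv_inv] at this
    simpa only [mul_assoc, SetLike.mem_coe] using this)
  have h3 : Dh x s ≤ K := fun a ha => z.mem a (h2 ha) (cop_ord (pg_cop pg c) ha)
  refine ⟨qp q K, qp_pg z.nil, le_qp pg h3, nm_qp (z.nk ?_)⟩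
  exact (mul_mem_cancel_left (z.yh (h2 hd))).1 hy

theorem bs (h : Hy p x) [Fact q.Prime] (hq : q ≠ p) {s z : G} (pg : IsPGroup q (Dh x s))
    (hz : z ∈ Dh x s) (hc : z ∈ Cn (zpowers x)) : ∃ N : Subgroup G,
      (IsPGroup q N ∧ N ≤ Cn (zpowers x) ∧ Cn (zpowers x) ≤ Nm N) ∧ z ∈ N := by
  have k : ∀ u : Cn (zpowers x), IsPGroup q ↥(zpowers (⟨z, hc⟩ : Cn (zpowers x)) ⊔
      (zpowers (⟨z, hc⟩ : Cn (zpowers x))).map (MulAut.conj u).toMonoidHom) := fun u => by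
    obtain ⟨W, h1, h2, h3⟩ := pair h hq pg u.2
    refine (h1.comap_subtype (K := Cn (zpowers x))).to_le (sup_le (zpowers_le.2 (h2 hz)) ?_)
    rw [MonoidHom.map_zpowers]
    exact zpowers_le.2 (nm_cj (D := W) h3 (h2 hz))
  obtain ⟨N, hN, h1, h2⟩ := Cfsg.Agent.S0199.result _ ((k 1).to_le le_sup_left) k
  refine ⟨N.map (Cn (zpowers x)).subtype, ⟨h1.map _, map_subtype_le _, fun g hg => mem_nm ?_⟩,
    _, h2 (mem_zpowers _), rfl⟩
  rintro _ ⟨n, hn, rfl⟩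
  exact ⟨_, hN.conj_mem n hn ⟨g, hg⟩, rfl⟩

theorem gen (h : Hy p x) (hp : p ≠ 2) [Fact q.Prime] (hq : q ≠ p) (m : Mq q (zpowers x) S)
    (k : ∀ s ∈ S, ∀ z ∈ Dh x s, z ∈ Cn (zpowers x) → z ∈ L) : S ⊓ Cn (zpowers x) ≤ L := by
  haveI := Fact.mk h.pp
  haveI := m.pg.isNilpotent
  have c : q.Coprime p := (Nat.coprime_primes Fact.out h.pp).2 hq
  let x' : Nm S := ⟨x, m.nm (mem_zpowers x)⟩
  let α : MulAut S := S.normalizerMonoidHom x'
  have hα : ∀ (i : ℕ) (s : S), (((α ^ i) s : S) : G) = x ^ i * s * (x ^ i)⁻¹ := fun i s => by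
    rw [← map_pow]; rfl
  have hf : ∀ s : S, s ∈ (α : S →* S).eqLocus (MonoidHom.id S) ↔ (s : G) ∈ Cn (zpowers x) :=
    fun s => by
      rw [mem_cn_zp]
      change α s = s ↔ _
      rw [Subtype.ext_iff, ← pow_one α, hα, pow_one, mul_inv_eq_iff_eq_mul]
      rfl
  have ho : orderOf α = p := by
    refine orderOf_eq_prime ?_ fun e => m.ne ?_
    · ext s
      rw [hα, h.xp]; simp
    · rw [← m.cm, comm_eq_bot]
      intro s hs
      refine (hf ⟨s, hs⟩).1 ?_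
      rw [e]; rfl
  have key := Cfsg.Agent.S3816.result hp (pg_cop m.pg c) α ho
  rintro z ⟨hz, hc⟩
  have h1 : ⁅S, zpowers x⁆ ≤ (closure {c : S | ∃ s : S, ∃ i : ℕ, c = s⁻¹ * (α ^ i) s}).map S.subtype := by
    refine commutator_le.2 fun s hs t ht => ?_
    obtain ⟨i, rfl⟩ := (mem_powers_iff_mem_zpowers.2 ht)
    refine ⟨_, subset_closure ⟨⟨s⁻¹, inv_mem hs⟩, i, rfl⟩, ?_⟩
    change s⁻¹⁻¹ * (((α ^ i) ⟨s⁻¹, inv_mem hs⟩ : S) : G) = _
    rw [hα, commutatorElement_def, inv_inv]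
    simp only [mul_assoc]
  rw [m.cm] at h1
  obtain ⟨z', h2, rfl⟩ := h1 hz
  have h3 : z' ∈ (closure {c : S | ∃ s : S, ∃ i : ℕ, c = s⁻¹ * (α ^ i) s}) ⊓
      (α : S →* S).eqLocus (MonoidHom.id S) := ⟨h2, (hf z').2 hc⟩
  rw [key] at h3
  refine (iSup_le fun s w hw => ?_ : _ ≤ L.comap S.subtype) h3
  refine k s s.2 w (((closure_le ((Dh x s).comap S.subtype)).2 ?_ : _ ≤ _) hw.1) ((hf w).1 hw.2)
  rintro _ ⟨i, rfl⟩
  exact subset_closure ⟨i, by rw [← hα]; rfl⟩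

end Odd

theorem Hy.tiq_odd (h : Hy p x) (hp : p ≠ 2) [Fact q.Prime] (hq : q ≠ p) :
    TIq q (zpowers x) := by
  obtain ⟨O, -, hO⟩ := Finite.exists_le_maximal
    (p := fun N : Subgroup G => IsPGroup q N ∧ N ≤ Cn (zpowers x) ∧ Cn (zpowers x) ≤ Nm N) (a := ⊥)
    ⟨IsPGroup.of_bot, bot_le, fun g _ => mem_nm (by simp)⟩
  refine ti_gen (O' := O) (by rw [h.czp]; exact (Nat.coprime_primes h.pp Fact.out).2 hq.symm)
    (h.h1 hq) hO.1.1 hO.1.2.1 hO.1.2.2 fun S m => Odd.gen h hp hq m fun s hs z hz hc => ?_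
  obtain ⟨N, ⟨h1, h2, h3⟩, h4⟩ := Odd.bs h hq (m.pg.to_le (Odd.Dh_le hs m.nm)) hz hc
  exact hO.2 (y := N ⊔ O) ⟨h1.to_sup_of_normal_right' hO.1.1 (h2.trans hO.1.2.2),
    sup_le h2 hO.1.2.1, fun g hg => nm_sup (h3 hg) (hO.1.2.2 hg)⟩ le_sup_right (mem_sup_left h4)

end Cfsg.Lib.FF2
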