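import Cfsg.Agent.FF2.Abel
import Cfsg.Agent.FF2.Frob

/-! The induction: from two-generated subgroups to the whole group. -/

set_option autoImplicit false

namespace Cfsg.Lib.FF2

open Subgroup Cfsg.Lib.Solv

universe u

section
variable {G G' : Type*} [Group G] [Group G'] {H L : Subgroup G} {x : G} {p : ℕ}

theorem Gd.map (f : G →* G') (k : Gd p H x) : Gd p (H.map f) (f x) := by
  obtain ⟨K, Y, a, b, c, d, e, i, j, l⟩ := k
  refine ⟨K.map f, Y.map f, map_mono a, map_mono b, (map_mono c).trans (le_normalizer_map f),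
    (map_mono d).trans (le_normalizer_map f),
    Group.nilpotent_of_surjective (f.subgroupMap K) (f.subgroupMap_surjective K),
    i.coprime_dvd_left (Subgroup.card_map_dvd K f), mem_map_of_mem f j, ?_⟩
  rintro _ ⟨y, hy, rfl⟩
  obtain ⟨n, hn⟩ := l y hy
  exact ⟨n, _, hn, map_pow _ _ _⟩

theorem Gd.comap (f : G' →* G) (hf : Function.Injective f) {x : G'} (k : Gd p H (f x)) :
    Gd p (H.comap f) x := by
  obtain ⟨K, Y, a, b, c, d, e, i, j, l⟩ := k
  have := nil_of_le e (map_comap_le f K)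
  refine ⟨K.comap f, Y.comap f, comap_mono a, comap_mono b, (comap_mono c).trans (le_normalizer_comap f),
    (comap_mono d).trans (le_normalizer_comap f),
    Group.nilpotent_of_mulEquiv ((K.comap f).equivMapOfInjective f hf).symm,
    by rw [← card_map_of_injective hf]; exact cop_of_le i (map_comap_le f K), j, fun y hy => ?_⟩
  obtain ⟨n, hn⟩ := l _ hy
  exact ⟨n, by rwa [mem_comap, map_pow]⟩

theorem Gd.res (k : Gd p H x) (l : x ∈ L) (le : L ≤ H) : Gd p L x := by
  have := (Gd.comap L.subtype L.subtype_injective (x := ⟨x, l⟩) k).map L.subtype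
  rwa [comap_subtype, subgroupOf_map_subtype, inf_eq_right.2 le] at this

theorem Gd.pow (k : Gd p H x) (n : ℕ) : Gd p H (x ^ n) := by
  obtain ⟨K, Y, a, b, c, d, e, i, j, l⟩ := k
  exact ⟨K, Y, a, b, c, d, e, i, pow_mem j n, l⟩

theorem Red.min [Finite G] {N : Subgroup G} (hN : N.Normal) (nil : Group.IsNilpotent N) (ne : N ≠ ⊥) :
    ∃ (V : Subgroup G) (q : ℕ), V.Normal ∧ V ≠ ⊥ ∧ q.Prime ∧ IsPGroup q V ∧
      (∀ a ∈ V, ∀ b ∈ V, a * b = b * a) ∧ ∀ W : Subgroup G, W.Normal → W ≤ V → W = ⊥ ∨ W = V := by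
  obtain ⟨V, ⟨n, v1, v2⟩, hV⟩ := exists_minimal_of_wellFoundedLT
    (fun V : Subgroup G => V.Normal ∧ V ≠ ⊥ ∧ V ≤ N) ⟨N, hN, ne, le_rfl⟩
  have mn : ∀ W : Subgroup G, W.Normal → W ≤ V → W = ⊥ ∨ W = V := fun W h le =>
    or_iff_not_imp_left.2 fun e => le.antisymm (hV ⟨h, e, le.trans v2⟩ le)
  have nl := nil_of_le nil v2
  obtain ⟨q, hq, d⟩ := Nat.exists_prime_and_dvd (mt card_eq_one.1 v1)
  have := Fact.mk hq
  refine ⟨V, q, n, v1, hq, ?_, ?_, mn⟩
  · obtain ⟨g, hg⟩ := exists_prime_orderOf_dvd_card' q d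
    rcases mn (qp q V) (normalizer_eq_top_iff.1 (top_unique fun g _ =>
      nm_qp ((normalizer_eq_top V).ge (mem_top g)))) qp_le with e | e
    · have : (g : G) ∈ qp q V := subset_closure ⟨g.2, 1, by
        rw [pow_one, ← hg, ← coe_pow, pow_orderOf_eq_one, coe_one]⟩
      rw [show g = 1 from Subtype.ext (mem_bot.1 (e ▸ this)), orderOf_one] at hg
      exact absurd hg.symm hq.ne_one
    · exact e ▸ qp_pg nl
  · rcases mn ⁅V, V⁆ inferInstance (commutator_le_left V V) with e | e
    · exact fun a ha b hb => mem_centralizer_iff.1 (comm_eq_bot.1 e hb) a ha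
    · have := (nontrivial_iff_ne_bot V).2 v1
      refine absurd (map_injective V.subtype_injective ?_) (Group.IsSolvable.commutator_lt_top_of_nontrivial V).ne
      rw [Subgroup.map_subtype_commutator, e, ← MonoidHom.range_eq_map, range_subtype]

end

variable {p : ℕ}

theorem gd_top (hp : p.Prime) (X : Type u) [Group X] [Finite X] (x : X)
    (hx : ∃ n : ℕ, x ^ p ^ n = 1) (k : ∀ y : X, Gd p (closure {x, y}) x) : Gd p ⊤ x := by
  induction hm : Nat.card X using Nat.strong_induction_on generalizing X with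
  | _ m ih =>
  subst hm
  have gd : ∀ x : X, (∃ n : ℕ, x ^ p ^ n = 1) → (∀ y : X, Gd p (closure {x, y}) x) →
      ∀ H : Subgroup X, H ≠ ⊤ → x ∈ H → Gd p H x := fun x ⟨n, hn⟩ k H h1 h2 => by
    have := (ih _ ((card_le_card_group H).lt_of_ne (mt (eq_top_of_card_eq H) h1)) H ⟨x, h2⟩
      ⟨n, Subtype.ext (by simpa using hn)⟩ (fun y => by
        have := Gd.comap H.subtype H.subtype_injective (x := ⟨x, h2⟩) (k y)
        rwa [show closure {x, (y : X)} = (closure {⟨x, h2⟩, y}).map H.subtype by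
          rw [MonoidHom.map_closure, Set.image_pair]; rfl,
          comap_map_eq_self_of_injective H.subtype_injective] at this) rfl).map H.subtype
    rwa [← MonoidHom.range_eq_map, range_subtype] at this
  by_contra c
  have two : ∀ y : X, closure {x, y} ≠ ⊤ := fun y e => c (e ▸ k y)
  by_cases nf : ∀ N : Subgroup X, N.Normal → Group.IsNilpotent N → N = ⊥
  · have := Fact.mk hp
    obtain ⟨n, hn⟩ := hx
    obtain ⟨n, -, o⟩ := (Nat.dvd_prime_pow hp).1 (orderOf_dvd_of_pow_eq_one hn)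
    cases n with
    | zero =>
      rw [pow_zero, orderOf_eq_one_iff] at o
      exact c ⟨⊥, ⊥, le_rfl, bot_le, (normalizer_eq_top ⊥).ge, (normalizer_eq_top ⊥).ge, inferInstance,
        by simp, mem_bot.2 o, fun y hy => ⟨0, pow_mem hy _⟩⟩
    | succ n =>
      have o' : orderOf (x ^ p ^ n) = p := by
        rw [orderOf_pow_of_dvd (pow_ne_zero n hp.ne_zero) (o ▸ pow_dvd_pow p n.le_succ), o, pow_succ,
          Nat.mul_div_cancel_left _ (pow_pos hp.pos n)]
      have k' : ∀ y : X, Gd p (closure {x ^ p ^ n, y}) (x ^ p ^ n) := fun y =>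
        ((k y).pow _).res (subset_closure (by simp)) ((closure_le _).2 (by
          rintro _ (rfl | rfl)
          · exact pow_mem (subset_closure (by simp)) _
          · exact subset_closure (by simp)))
      refine Hy.elim (p := p) (x := x ^ p ^ n) ⟨hp, nf, o', gd _ ⟨1, orderOf_dvd_iff_pow_eq_one.1
        (o'.trans (pow_one p).symm).dvd⟩ k', fun y e => ?_⟩
      obtain ⟨K, Y, -, -, c, d, e, -, j, l⟩ := e ▸ k' y
      obtain rfl := nf K (normalizer_eq_top_iff.1 (top_unique c)) e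
      obtain rfl := nf Y (normalizer_eq_top_iff.1 (top_unique d)) (pg_of l).isNilpotent
      rw [mem_bot.1 j, orderOf_one] at o'
      exact hp.ne_one o'.symm
  push Not at nf
  obtain ⟨N, n1, n2, n3⟩ := nf
  obtain ⟨V, q, v0, v1, hq, v2, v3, v4⟩ := Red.min n1 n2 n3
  refine c (gd_of_abel hp hx (gd x hx k) two hq v2 v3 v4 (ih _ ?_ (X ⧸ V) _
    (hx.imp fun n hn => by rw [← map_pow, hn, map_one]) (fun y => ?_) rfl))
  · rw [← index_eq_card, ← V.index_mul_card]
    exact lt_mul_of_one_lt_right (Nat.pos_of_ne_zero FiniteIndex.index_ne_zero) ((one_lt_card_iff_ne_bot V).2 v1)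
  · obtain ⟨y, rfl⟩ := QuotientGroup.mk'_surjective V y
    have := (k y).map (QuotientGroup.mk' V)
    rwa [MonoidHom.map_closure, Set.image_pair] at this

end Cfsg.Lib.FF2
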