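import Cfsg.Agent.FF2.Kit

/-! Uniqueness of maximal `q`-groups `S = [S, A]`. -/

set_option autoImplicit false

namespace Cfsg.Lib.FF2

open Subgroup Cfsg.Lib.Solv
open scoped commutatorElement

variable {G : Type*} [Group G] [Finite G]
variable {A I S : Subgroup G} {q : ℕ}

/-- normalisers of invariant `q`-subgroups have a normal `q`-subgroup containing all members -/
def H1 (q : ℕ) (A : Subgroup G) : Prop :=
  ∀ U : Subgroup G, U ≠ ⊥ → IsPGroup q U → A ≤ Nm U → ∃ O : Subgroup G, IsPGroup q O ∧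
    O ≤ Nm U ∧ Nm U ≤ Nm O ∧ ∀ D, Mq q A D → D ≤ Nm U → D ≤ O

/-- the extremal situation -/
structure Ex (q : ℕ) (A S I : Subgroup G) : Prop where
  cop : (Nat.card A).Coprime q
  h1 : H1 q A
  mS : Maximal (Mq q A) S
  mI : Mq q A I
  le : I ≤ S
  oth : ∃ T, Mq q A T ∧ I ≤ T ∧ ¬ T ≤ S
  up : ∀ E E', Mq q A E → I < E → E ≤ S → Mq q A E' → E ≤ E' → E' ≤ S

variable [Fact q.Prime]

theorem stq {Q : Subgroup G} (c : (Nat.card A).Coprime q) (n : IsPGroup q Q) (m : A ≤ Nm Q) :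
    ⁅⁅Q, A⁆, A⁆ = ⁅Q, A⁆ := stable m (pg_cop n c.symm).symm n.isNilpotent

theorem decq {Q L : Subgroup G} (c : (Nat.card A).Coprime q) (n : IsPGroup q Q) (m : A ≤ Nm Q)
    (h1 : ⁅Q, A⁆ ≤ L) (h2 : ∀ g ∈ Q, g ∈ Cn A → g ∈ L) : Q ≤ L :=
  le_of_decomp m (pg_cop n c.symm).symm n.isNilpotent h1 h2

omit [Finite G] [Fact q.Prime] in
theorem Mq.le_cm {D Q : Subgroup G} (m : Mq q A D) (l : D ≤ Q) : D ≤ ⁅Q, A⁆ :=
  m.cm.symm.trans_le (commutator_mono l le_rfl)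

omit [Finite G] [Fact q.Prime] in
theorem Mq.cm_ne {D Q : Subgroup G} (m : Mq q A D) (l : D ≤ Q) : ⁅Q, A⁆ ≠ ⊥ :=
  fun e => m.ne (le_bot_iff.1 ((m.le_cm l).trans_eq e))

/-- invariant `q`-subgroups of the normaliser of `S` have their commutator in `S` -/
theorem Ex.nS (e : Ex q A S I) {N : Subgroup G} (n : IsPGroup q N) (m : A ≤ Nm N)
    (l : N ≤ Nm S) : ⁅N, A⁆ ≤ S := by
  by_cases k : ⁅N, A⁆ = ⊥
  · exact k.trans_le bot_le
  obtain ⟨O, o1, o2, o3, o4⟩ := e.h1 S e.mS.1.ne e.mS.1.pg e.mS.1.nm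
  have s := o4 S e.mS.1 le_normalizer
  have := e.mS.2 (mq_cm e.cop o1 (e.mS.1.nm.trans o3) (e.mS.1.cm_ne s)) (e.mS.1.le_cm s)
  have k := mq_cm e.cop n m k
  exact (k.le_cm (o4 _ k ((comm_le m).trans l))).trans this

omit [Finite G] [Fact q.Prime] in
theorem Ex.ne (e : Ex q A S I) : ¬ S ≤ I := fun k => by
  obtain ⟨T, t1, t2, t3⟩ := e.oth
  exact t3 (e.mS.2 t1 (k.trans t2))

theorem Ex.step1 (e : Ex q A S I) (h : ∀ g ∈ Cn A, g ∈ Nm I → g ∈ Nm S) : False := by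
  obtain ⟨T₀, t1, t2, t3⟩ := e.oth
  obtain ⟨T, ⟨p1, p2, p3, p4⟩, mx⟩ := Set.exists_max_image
    {T : Subgroup G | IsPGroup q T ∧ A ≤ Nm T ∧ I ≤ T ∧ ¬ ⁅T, A⁆ ≤ S}
    (fun T => Nat.card (T ⊓ Nm S : Subgroup G)) (Set.toFinite _)
    ⟨T₀, t1.pg, t1.nm, t2, by rwa [t1.cm]⟩
  set N := T ⊓ Nm S with hN
  have nA : A ≤ Nm N := fun g hg => nm_inf (p2 hg) (nm_nm (e.mS.1.nm hg))
  have nq : IsPGroup q N := p1.to_inf_left
  have iN : I ≤ N := le_inf p3 (e.le.trans le_normalizer)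
  have c1 : ⁅N, A⁆ = I := by
    by_contra k
    exact p4 (e.up _ _ (mq_cm e.cop nq nA (e.mI.cm_ne iN)) (lt_of_le_of_ne (e.mI.le_cm iN)
      (Ne.symm k)) (e.nS nq nA inf_le_right) (mq_cm e.cop p1 p2 (e.mI.cm_ne p3))
      (commutator_mono inf_le_left le_rfl))
  have lt1 : N < T := lt_of_le_of_ne inf_le_left fun k => p4 (by rw [← k, c1]; exact e.le)
  have sq : IsPGroup q (N ⊔ S : Subgroup G) := nq.to_sup_of_normal_right' e.mS.1.pg inf_le_right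
  have lt2 : N < N ⊔ S := lt_of_le_of_ne le_sup_left fun k =>
    e.ne ((e.mS.1.le_cm (le_sup_right.trans_eq k.symm)).trans_eq c1)
  have g1 := PG.lt_inf_normalizer_of_isNilpotent p1.isNilpotent lt1
  have g2 := PG.lt_inf_normalizer_of_isNilpotent sq.isNilpotent lt2
  obtain ⟨O, o1, o2, o3, o4⟩ := e.h1 N (fun k => e.mI.ne (le_bot_iff.1 (iN.trans_eq k))) nq nA
  have bA : A ≤ Nm ((N ⊔ S) ⊓ Nm N) := fun g hg =>
    nm_inf (nm_sup (nA hg) (e.mS.1.nm hg)) (nm_nm (nA hg))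
  have oS : ⁅O, A⁆ ≤ S := by
    by_contra k
    have := mx (((N ⊔ S) ⊓ Nm N) ⊔ O) ⟨sq.to_inf_left.to_sup_of_normal_right' o1
      (inf_le_right.trans o3), fun g hg => nm_sup (bA hg) (o3 (nA hg)),
      iN.trans (g2.le.trans le_sup_left), fun l => k ((commutator_mono le_sup_right le_rfl).trans l)⟩
    refine absurd this (not_le.2 (card_lt_of_lt (g2.trans_le (le_inf le_sup_left
      (inf_le_left.trans (sup_le inf_le_right le_normalizer))))))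
  have tA : A ≤ Nm (T ⊓ Nm N) := fun g hg => nm_inf (p2 hg) (nm_nm (nA hg))
  have m := mq_cm e.cop p1.to_inf_left tA (e.mI.cm_ne (iN.trans g1.le))
  refine g1.not_ge (le_inf inf_le_left (decq e.cop p1.to_inf_left tA
    (((m.le_cm (o4 _ m ((comm_le tA).trans inf_le_right))).trans oS).trans le_normalizer)
    fun g hg hc => h g hc ?_))
  rw [← c1]
  exact nm_comm hg.2 (cn_le_nm hc)

theorem Ex.step2 (e : Ex q A S I) {O' R : Subgroup G} (h2 : S ⊓ Cn A ≤ O') (r1 : R ≤ O')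
    (r2 : IsPGroup q R) (r3 : R ≤ Cn A) (r4 : R ≤ Nm I) (r5 : R ≤ Nm S)
    (r6 : O' ⊓ Nm I ⊓ Nm S ≤ R) {g : G} (g1 : g ∈ Cn A) (g2 : g ∈ Nm (R ⊔ I)) : g ∈ Nm S := by
  have rA : A ≤ Nm R := (le_centralizer_iff.1 r3).trans cn_le_nm
  have tq : IsPGroup q (R ⊔ S : Subgroup G) := r2.to_sup_of_normal_right' e.mS.1.pg r5
  have tA : A ≤ Nm (R ⊔ S) := fun g hg => nm_sup (rA hg) (e.mS.1.nm hg)
  have nq : IsPGroup q (R ⊔ I : Subgroup G) := tq.to_le (sup_le_sup_left e.le R)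
  have nA : A ≤ Nm (R ⊔ I) := fun g hg => nm_sup (rA hg) (e.mI.nm hg)
  have c1 : ⁅R ⊔ I, A⁆ = I := by
    refine le_antisymm (commutator_le.2 fun a ha b hb => ?_) (e.mI.le_cm le_sup_right)
    obtain ⟨i, hi, r, hr, rfl⟩ := mem_sup_nm r4 (sup_comm R I ▸ ha)
    have : ⁅i * r, b⁆ = i * (b * i⁻¹ * b⁻¹) := by
      rw [commutatorElement_def, mul_assoc i r b, ← r3 hr b hb]; group
    rw [this]
    exact mul_mem hi (nm_cj (e.mI.nm hb) (inv_mem hi))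
  have lt1 : R ⊔ I < R ⊔ S := lt_of_le_of_ne (sup_le_sup_left e.le R) fun k =>
    e.ne ((e.mS.1.le_cm (le_sup_right.trans_eq k.symm)).trans_eq c1)
  have g1' := PG.lt_inf_normalizer_of_isNilpotent tq.isNilpotent lt1
  have bA : A ≤ Nm ((R ⊔ S) ⊓ Nm (R ⊔ I)) := fun g hg => nm_inf (tA hg) (nm_nm (nA hg))
  have iB : I ≤ (R ⊔ S) ⊓ Nm (R ⊔ I) := le_sup_right.trans g1'.le
  have tS : R ⊔ S ≤ Nm S := sup_le r5 le_normalizer
  have m := mq_cm e.cop tq.to_inf_left bA (e.mI.cm_ne iB)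
  have lt2 : I < ⁅(R ⊔ S) ⊓ Nm (R ⊔ I), A⁆ := lt_of_le_of_ne (e.mI.le_cm iB) fun k => by
    refine g1'.not_ge (decq e.cop tq.to_inf_left bA (k.symm.trans_le le_sup_right)
      fun c hc hc' => mem_sup_left (r6 ⟨⟨?_, ?_⟩, tS hc.1⟩))
    · obtain ⟨s, hs, r, hr, rfl⟩ := mem_sup_nm r5 (sup_comm R S ▸ hc.1)
      exact mul_mem (h2 ⟨hs, (mul_mem_cancel_right (r3 hr)).1 hc'⟩) (r1 hr)
    · have := nm_comm hc.2 (cn_le_nm hc')
      rwa [c1] at this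
  have mS := e.nS tq.to_inf_left bA (inf_le_left.trans tS)
  obtain ⟨O, o1, o2, o3, o4⟩ := e.h1 _
    (fun k => e.mI.ne (le_bot_iff.1 (le_sup_right.trans_eq k))) nq nA
  have l := m.le_cm (o4 _ m ((comm_le bA).trans inf_le_right))
  have mO := mq_cm e.cop o1 (nA.trans o3) fun k => m.ne (le_bot_iff.1 (l.trans_eq k))
  have gA : cj g A = A := cj_eq_iff.2 (cn_le_nm g1)
  have gO : cj g ⁅O, A⁆ = ⁅O, A⁆ := cj_eq_iff.2 (nm_comm (o3 g2) (cn_le_nm g1))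
  have mg : Maximal (Mq q A) (cj g S) := by simpa only [gA] using mxq_cj (g := g) e.mS
  have l2 : cj g S ≤ S := e.up _ _ m lt2 mS mg.1
    (l.trans (gO.symm.trans_le (cj_mono (e.up _ _ m lt2 mS mO l))))
  exact cj_eq_iff.1 (le_antisymm l2 (mg.2 e.mS.1 l2))

theorem ti_gen {O' : Subgroup G} (hA : (Nat.card A).Coprime q)
    (h1 : ∀ U : Subgroup G, U ≠ ⊥ → IsPGroup q U → A ≤ Nm U → ∃ O : Subgroup G, IsPGroup q O ∧
      O ≤ Nm U ∧ Nm U ≤ Nm O ∧ ∀ D, Mq q A D → D ≤ Nm U → D ≤ O)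
    (hO : IsPGroup q O') (hO1 : O' ≤ Cn A) (hO2 : Cn A ≤ Nm O')
    (h2 : ∀ S, Mq q A S → S ⊓ Cn A ≤ O') : TIq q A := by
  intro S T D hS hT hD d1 d2
  by_contra ne
  obtain ⟨I, -, mI⟩ := Finite.exists_le_maximal
    (p := fun I => Mq q A I ∧ I ≤ S ∧ ∃ T, Mq q A T ∧ I ≤ T ∧ ¬ T ≤ S) (a := D)
    ⟨hD, d1, T, hT.1, d2, fun l => ne (le_antisymm (hT.2 hS.1 l) l)⟩
  have e : Ex q A S I := ⟨hA, h1, hS, mI.1.1, mI.1.2.1, mI.1.2.2, fun E E' a b c d f => by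
    by_contra k
    exact b.not_ge (mI.2 ⟨a, c, E', d, f, k⟩ b.le)⟩
  have rq : IsPGroup q (O' ⊓ Nm I : Subgroup G) := hO.to_inf_left
  have st := fun g => e.step2 (h2 S hS.1) (R := O' ⊓ Nm I ⊓ Nm S) (inf_le_left.trans inf_le_left)
    rq.to_inf_left ((inf_le_left.trans inf_le_left).trans hO1) (inf_le_left.trans inf_le_right)
    inf_le_right le_rfl (g := g)
  have eq : O' ⊓ Nm I ⊓ Nm S = O' ⊓ Nm I := by
    by_contra k
    refine (PG.lt_inf_normalizer_of_isNilpotent rq.isNilpotent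
      (lt_of_le_of_ne inf_le_left k)).not_ge fun g hg => ⟨hg.1, st g (hO1 hg.1.1) ?_⟩
    exact nm_sup hg.2 hg.1.2
  refine e.step1 fun g g1 g2 => st g g1 (nm_sup ?_ g2)
  rw [eq]
  exact nm_inf (hO2 g1) (nm_nm g2)

end Cfsg.Lib.FF2
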