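import Cfsg.Agent.FF2.TI
import Cfsg.Agent.S1329
import Cfsg.Agent.S0215
import Cfsg.Agent.S0205

/-! The trivial intersection property for an involution. -/

set_option autoImplicit false
set_option linter.unusedSectionVars false
set_option linter.unusedVariables false
set_option linter.unusedSimpArgs false

namespace Cfsg.Lib.FF2

open Subgroup Cfsg.Lib.Solv
open scoped commutatorElement

variable {G : Type*} [Group G] [Finite G]
variable {A D E H K L Q R S T U W : Subgroup G} {a b c g s t x : G} {p q : ℕ}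

namespace Two

theorem xx (h : Hy 2 x) : x * x = 1 := by rw [← sq, h.xp]

theorem xi (h : Hy 2 x) : x⁻¹ = x := inv_eq_of_mul_eq_one_right (xx h)

theorem zp2 (e : a * a = 1) (k : b ∈ zpowers a) : b = 1 ∨ b = a := by
  obtain ⟨n, rfl⟩ := k
  have e2 : a ^ (2 : ℤ) = 1 := by rw [zpow_two, e]
  rcases Int.even_or_odd' n with ⟨m, rfl | rfl⟩
  · exact .inl (by simp only [zpow_mul, e2, one_zpow])
  · exact .inr (by simp only [zpow_add, zpow_mul, e2, one_zpow, one_mul, zpow_one])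

theorem solv_bot (h : Hy p x) (N : Subgroup G) [N.Normal] (k : Group.IsSolvable N) : N = ⊥ := by
  obtain ⟨n, hn⟩ := (Group.isSolvable_def _).1 k
  induction n with
  | zero =>
    refine eq_bot_iff.2 fun a ha => ?_
    have : (⟨a, ha⟩ : N) ∈ derivedSeries N 0 := mem_top _
    rw [hn, mem_bot] at this
    exact congrArg Subtype.val this
  | succ n ih =>
    refine ih ((map_eq_bot_iff_of_injective _ N.subtype_injective).1 (h.nf _ inferInstance
      (nil_of_comm ?_)))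
    rintro _ ⟨a, ha, rfl⟩ _ ⟨b, hb, rfl⟩
    have : ⁅a, b⁆ ∈ derivedSeries N (n + 1) := commutator_mem_commutator ha hb
    rw [hn, mem_bot, commutatorElement_eq_one_iff_mul_comm] at this
    exact congrArg Subtype.val this

/-- a commuting conjugate -/
theorem ex_t (h : Hy 2 x) : ∃ g : G, g * x * g⁻¹ ≠ x ∧ Commute x (g * x * g⁻¹) := by
  by_contra k
  have k1 : ∀ g : G, Commute x (g * x * g⁻¹) → g * x * g⁻¹ = x := fun g e => by
    by_contra c; exact k ⟨g, c, e⟩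
  have hz : IsPGroup 2 (zpowers x) := IsPGroup.of_card (n := 1) (by rw [h.czp, pow_one])
  obtain ⟨P, hP⟩ := hz.exists_le_sylow
  have xP : x ∈ (P : Subgroup G) := hP (mem_zpowers x)
  have cP : (P : Subgroup G) ≤ Cn (zpowers x) := by
    by_contra c
    have l : (P : Subgroup G) ⊓ Cn (zpowers x) < P :=
      lt_of_le_of_ne inf_le_left fun e => c (e.symm.trans_le inf_le_right)
    obtain ⟨r, hr, hr'⟩ := SetLike.exists_of_lt
      (PG.lt_inf_normalizer_of_isNilpotent P.isPGroup'.isNilpotent l)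
    have := k1 r (mem_cn_zp.1 (nm_cj hr.2 ⟨xP, mem_cn_zp.2 (Commute.refl x)⟩).2)
    exact hr' ⟨hr.1, mem_cn_zp.2 (mul_inv_eq_iff_eq_mul.1 this).symm⟩
  obtain ⟨N, hN, o, m⟩ := Cfsg.Agent.S0215.result P x h.ord xP fun g hg =>
    k1 g (mem_cn_zp.1 (cP hg))
  have e := solv_bot h N (Cfsg.Agent.S0205.result o)
  refine h.cn_ne (D := zpowers x) (fun e => h.ne1 (zpowers_eq_bot.1 e)) (eq_top_iff.2 fun g _ => ?_)
  have := m g
  rw [e, mem_bot, ← commutatorElement_def, commutatorElement_eq_one_iff_mul_comm] at this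
  exact mem_cn_zp.2 this

theorem mem_V (hx : x * x = 1) (ht : t * t = 1) (c : Commute x t) (k : a ∈ closure {x, t}) :
    a * a = 1 ∧ Commute x a ∧ Commute t a := by
  induction k using closure_induction with
  | mem y hy =>
    rcases hy with rfl | rfl
    exacts [⟨hx, .refl _, c.symm⟩, ⟨ht, c, .refl _⟩]
  | one => exact ⟨one_mul 1, .one_right _, .one_right _⟩
  | inv y _ hy => exact ⟨by rw [← mul_inv_rev, hy.1, inv_one], hy.2.1.inv_right, hy.2.2.inv_right⟩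
  | mul y z hy hz iy iz =>
    have : Commute y z := by
      refine mem_cn_zp.1 ?_ |>.symm
      exact (closure_le (Cn (zpowers z))).2 (by
        rintro _ (rfl | rfl)
        exacts [mem_cn_zp.2 iz.2.1.symm, mem_cn_zp.2 iz.2.2.symm]) hy
    exact ⟨by rw [mul_assoc, ← mul_assoc z, ← this.eq, mul_assoc y, iz.1, mul_one, iy.1],
      iy.2.1.mul_right iz.2.1, iy.2.2.mul_right iz.2.2⟩

theorem V_le (hx : x ∈ H) (ht : t ∈ H) : closure {x, t} ≤ H :=
  (closure_le _).2 (by rintro _ (rfl | rfl); exacts [hx, ht])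

theorem x_V : x ∈ closure {x, t} := subset_closure (.inl rfl)

theorem t_V : t ∈ closure {x, t} := subset_closure (.inr rfl)

theorem cop2 [Fact q.Prime] (hq : q ≠ 2) : q.Coprime 2 :=
  (Nat.coprime_primes Fact.out Nat.prime_two).2 hq

theorem omega (h : Hy 2 x) (ht : Hy 2 t) [Fact q.Prime] (hq : q ≠ 2) (k : H ≠ ⊤) (l : x ∈ H)
    (l' : t ∈ H) : ∃ O : Subgroup G, IsPGroup q O ∧ O ≤ H ∧ H ≤ Nm O ∧
      ∀ Q : Subgroup G, IsPGroup q Q → Q ≤ H → closure {x, t} ≤ Nm Q →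
        ⁅Q, closure {x, t}⁆ ≤ O := by
  obtain ⟨K, Y, z⟩ := h.ky k l
  obtain ⟨K', Y', z'⟩ := ht.ky k l'
  have n : H ≤ Nm (qp q K ⊔ qp q K') := fun g hg => nm_sup (nm_qp (z.nk hg)) (nm_qp (z'.nk hg))
  have l1 : qp q K ≤ H := qp_le.trans (z.ky.trans z.yh)
  refine ⟨_, (qp_pg z.nil).to_sup_of_normal_right' (qp_pg z'.nil) fun g hg => nm_qp (z'.nk (l1 hg)),
    sup_le l1 (qp_le.trans (z'.ky.trans z'.yh)), n, fun Q h1 h2 h3 =>
      commutator_le.2 fun a ha v hv => ?_⟩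
  induction hv using closure_induction with
  | mem y hy =>
    have m : zpowers y ≤ Nm Q := zpowers_le.2 (h3 (subset_closure hy))
    have m1 := commutator_mem_commutator ha (mem_zpowers y)
    rcases hy with rfl | rfl
    · exact mem_sup_left (le_qp (h1.to_le (comm_le m)) (z.cm Q h2 (pg_cop h1 (cop2 hq)) m) m1)
    · exact mem_sup_right (le_qp (h1.to_le (comm_le m)) (z'.cm Q h2 (pg_cop h1 (cop2 hq)) m) m1)
  | one => rw [commutatorElement_one_right]; exact one_mem _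
  | inv y hy iy =>
    have := nm_cj' (n (V_le l l' hy)) (inv_mem iy)
    convert this using 1
    simp [commutatorElement_def, mul_assoc]
  | mul y w hy _ iy iw =>
    have := mul_mem iy (nm_cj (n (V_le l l' hy)) iw)
    convert this using 1
    simp [commutatorElement_def, mul_assoc]

theorem tiV (h : Hy 2 x) (ht : Hy 2 t) [Fact q.Prime] (hq : q ≠ 2) (c : Commute x t)
    (ne : t ≠ x) : TIq q (closure {x, t}) := by
  have mV := fun a => mem_V (a := a) (xx h) (xx ht) c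
  have p2 : IsPGroup 2 (closure {x, t} : Subgroup G) :=
    pg_of fun a ha => ⟨1, by rw [pow_one, sq, (mV a ha).1]⟩
  have ab : ∀ a ∈ closure {x, t}, closure {x, t} ≤ Cn (zpowers a) := fun a ha =>
    V_le (mem_cn_zp.2 (mV a ha).2.1.symm) (mem_cn_zp.2 (mV a ha).2.2.symm)
  obtain ⟨O', -, hO⟩ := Finite.exists_le_maximal (p := fun R : Subgroup G => IsPGroup q R ∧
    R ≤ Cn (closure {x, t}) ∧ Cn (closure {x, t}) ≤ Nm R) (a := ⊥)
      ⟨IsPGroup.of_bot, bot_le, fun g _ => cj_eq_iff.1 cj_bot⟩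
  refine ti_gen (O' := O') (pg_cop p2 (cop2 hq).symm) (fun U h1 h2 h3 => ?_) hO.1.1 hO.1.2.1
    hO.1.2.2 fun S hS => ?_
  · obtain ⟨O, o1, o2, o3, o4⟩ := omega h ht hq (h.nm_ne h1 h2.isNilpotent) (h3 x_V) (h3 t_V)
    exact ⟨O, o1, o2, o3, fun D hD l => hD.cm.symm.trans_le (o4 D hD.pg l hD.nm)⟩
  · rw [Cfsg.Agent.S1329.result _ _ S p2
      ⟨⟨fun a b => Subtype.ext (mem_cn_zp.1 (ab a.1 a.2 b.2)).eq⟩⟩ le_rfl
      (Nat.coprime_two_right.1 (pg_cop hS.pg (cop2 hq))) hS.nm hS.cm]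
    refine iSup_le ?_
    rintro ⟨B, hB, cy⟩
    have nb : B ≠ ⊥ := by
      rintro rfl
      have : (⊥ : Subgroup G).subgroupOf (closure {x, t}) = ⊥ := bot_subgroupOf _
      have i : ((⊥ : Subgroup G).subgroupOf (closure {x, t})).Normal := this ▸ inferInstance
      have cy' : IsCyclic (closure {x, t} : Subgroup G) :=
        isCyclic_of_injective (QuotientGroup.mk' ((⊥ : Subgroup G).subgroupOf (closure {x, t})))
          ((MonoidHom.ker_eq_bot_iff _).1 (by rw [QuotientGroup.ker_mk', this]))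
      obtain ⟨y, hy⟩ := cy'.exists_generator
      have e : y * y = 1 := Subtype.ext (mV y.1 y.2).1
      rcases zp2 e (hy ⟨x, x_V⟩) with e1 | e1
      · exact h.ne1 (congrArg Subtype.val e1)
      rcases zp2 e (hy ⟨t, t_V⟩) with e2 | e2
      · exact ht.ne1 (congrArg Subtype.val e2)
      · exact ne (congrArg Subtype.val (e2.trans e1.symm))
    have vb : closure {x, t} ≤ Cn B := fun v hv b hb => (mem_cn_zp.1 (ab b (hB hb) hv)).eq
    have cb : Cn (closure {x, t}) ≤ Cn B := centralizer_le (SetLike.coe_subset_coe.2 hB)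
    obtain ⟨O, o1, o2, o3, o4⟩ := omega h ht hq (h.cn_ne nb) (vb x_V) (vb t_V)
    have l := o4 (S ⊓ Cn B) (hS.pg.to_le inf_le_left) inf_le_right
      fun v hv => nm_inf (hS.nm hv) (le_normalizer (vb hv))
    have n : Cn (closure {x, t}) ≤ Nm (O ⊓ Cn (closure {x, t})) :=
      fun v hv => nm_inf (o3 (cb hv)) (le_normalizer hv)
    have := hO.2 (y := O ⊓ Cn (closure {x, t}) ⊔ O') ⟨(o1.to_le inf_le_left).to_sup_of_normal_right'
      hO.1.1 (inf_le_right.trans hO.1.2.2), sup_le inf_le_right hO.1.2.1,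
        fun v hv => nm_sup (n hv) (hO.1.2.2 hv)⟩ le_sup_right
    exact fun a ha => this (mem_sup_left ⟨l ha.2, ha.1.2⟩)

/-- The properties of `[O_q(K), x]` for `K` the complement in `C(s)`. -/
structure KS (q : ℕ) (x s : G) (K : Subgroup G) : Prop where
  pg : IsPGroup q K
  cn : K ≤ Cn (zpowers s)
  nm : ∀ g, Commute x g → Commute s g → g ∈ Nm K
  cm : ⁅K, zpowers x⁆ = K
  le : ∀ E : Subgroup G, IsPGroup q E → E ≤ Cn (zpowers s) → zpowers x ≤ Nm E →
    ⁅E, zpowers x⁆ ≤ K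

theorem stab (h : Hy 2 x) [Fact q.Prime] (hq : q ≠ 2) (k : IsPGroup q E) (n : zpowers x ≤ Nm E) :
    ⁅⁅E, zpowers x⁆, zpowers x⁆ = ⁅E, zpowers x⁆ :=
  stable n (h.cop (pg_cop k (cop2 hq))) k.isNilpotent

theorem exK (h : Hy 2 x) [Fact q.Prime] (hq : q ≠ 2) (s1 : s ≠ 1) (c : Commute x s) :
    ∃ K, KS q x s K := by
  obtain ⟨K, Y, z⟩ := h.ky (h.cn_ne (D := zpowers s) fun e => s1 (zpowers_eq_bot.1 e))
    (mem_cn_zp.2 c.symm)
  have n : zpowers x ≤ Nm (qp q K) := fun g hg => nm_qp (z.xk hg)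
  refine ⟨⁅qp q K, zpowers x⁆, (qp_pg z.nil).to_le (comm_le n),
    (comm_le n).trans (qp_le.trans (z.ky.trans z.yh)),
    fun g h1 h2 => nm_comm (nm_qp (z.nk (mem_cn_zp.2 h2))) (cn_le_nm (mem_cn_zp.2 h1)),
    stab h hq (qp_pg z.nil) n, fun E h1 h2 h3 => ?_⟩
  rw [← stab h hq h1 h3]
  exact commutator_mono (le_qp (h1.to_le (comm_le h3)) (z.cm E h2 (pg_cop h1 (cop2 hq)) h3)) le_rfl

theorem ocop [Fact q.Prime] (hq : q ≠ 2) (k : IsPGroup q E) (l : a ∈ E) : (orderOf a).Coprime 2 :=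
  cop_ord (pg_cop k (cop2 hq)) l

theorem inv_mem_cm (o : (orderOf b).Coprime 2) (l : b ∈ E) (i : x * b * x⁻¹ = b⁻¹) :
    b ∈ ⁅E, zpowers x⁆ := by
  refine mem_of_pow o (n := 1) ?_
  have := commutator_mem_commutator l (mem_zpowers x)
  have e : x * b⁻¹ * x⁻¹ = b := by rw [← conj_inv, i, inv_inv]
  rwa [commutatorElement_def, mul_assoc, mul_assoc, ← mul_assoc x, e, ← sq, ← pow_one 2] at this

theorem exE (h : Hy 2 x) [Fact q.Prime] (hq : q ≠ 2) (c : Commute x t) (k : IsPGroup q S)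
    (l : b ∈ S) (i : x * b * x⁻¹ = b⁻¹) :
    ∃ E : Subgroup G, IsPGroup q E ∧ closure {x, t} ≤ Nm E ∧ ⁅E, zpowers x⁆ = E ∧ b ∈ E := by
  have o := ocop hq k l
  obtain ⟨K, Y, z⟩ := h.ky (h.two (b * t)) x_V
  have h1 : b ∈ K := by
    refine z.mem b (mem_of_pow o (n := 1) ?_) o
    have := mul_mem (nm_cj (z.ny t_V) z.xy) (inv_mem z.xy)
    have e : x * b⁻¹ * x⁻¹ = b := by rw [← conj_inv, i, inv_inv]
    rwa [mul_assoc b, ← c.eq, mul_inv_rev, mul_assoc b, mul_assoc x, mul_inv_cancel_left,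
      mul_assoc b, e, ← sq, ← pow_one 2] at this
  have h2 : t ∈ closure {x, b * t} := (mul_mem_cancel_left (z.yh (z.ky h1))).1 t_V
  have n : closure {x, t} ≤ Nm (qp q K) := fun g hg => nm_qp (z.nk (V_le x_V h2 hg))
  have n1 : zpowers x ≤ Nm (qp q K) := zpowers_le.2 (n x_V)
  exact ⟨⁅qp q K, zpowers x⁆, (qp_pg z.nil).to_le (comm_le n1), V_le
    (nm_comm (n x_V) (le_normalizer (mem_zpowers x))) (nm_comm (n t_V) (cn_le_nm (mem_cn_zp.2 c))),
    stab h hq (qp_pg z.nil) n1, inv_mem_cm o ((mem_qp z.nil).2 ⟨h1, pg_pow k l⟩) i⟩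

theorem inv_s (o : Odd (Nat.card E)) (c : Commute x s) (s2 : s * s = 1) (nx : x ∈ Nm E)
    (ns : s ∈ Nm E) (k : E ⊓ Cn (zpowers s) ≤ Cn (zpowers x)) (l : b ∈ E)
    (i : x * b * x⁻¹ = b⁻¹) : s * b * s⁻¹ = b⁻¹ := by
  obtain ⟨m, hm⟩ := o
  have rt : ∀ y ∈ E, (y * y) ^ (m + 1) = y := fun y hy => by
    have : y ^ (2 * m + 1) = 1 := by
      rw [← hm]; exact congrArg Subtype.val (pow_card_eq_one' (x := (⟨y, hy⟩ : E)))
    rw [← sq, ← pow_mul, show 2 * (m + 1) = 2 * m + 1 + 1 by ring, pow_succ, this, one_mul]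
  have si : s⁻¹ = s := inv_eq_of_mul_eq_one_right s2
  have ss : ∀ y : G, s * (s * y) = y := fun y => by rw [← mul_assoc, s2, one_mul]
  obtain ⟨u, hu⟩ : ∃ u, u = b⁻¹ * (s * b * s⁻¹) := ⟨_, rfl⟩
  have uE : u ∈ E := hu ▸ mul_mem (inv_mem l) (nm_cj ns l)
  obtain ⟨j, hj⟩ : ∃ j, j = u ^ (m + 1) := ⟨_, rfl⟩
  have jE : j ∈ E := hj ▸ pow_mem uE _
  have j2 : j * j = u := by rw [hj, ← (Commute.refl u).mul_pow, rt u uE]
  have su : s * u * s⁻¹ = u⁻¹ := by rw [hu]; simp [si, mul_assoc, ss, s2]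
  have sj : s * j * s⁻¹ = j⁻¹ := by rw [hj, ← conj_pow, su, inv_pow]
  have sb : s * b * s⁻¹ = b * (j * j) := by rw [j2, hu, mul_inv_cancel_left]
  have c1 : Commute s (b * j) := by
    have : s * (b * j) * s⁻¹ = b * j := by
      rw [← conj_mul, sb, sj]; simp [mul_assoc]
    exact mul_inv_eq_iff_eq_mul.1 this
  have c2 : x * (b * j) * x⁻¹ = b * j :=
    mul_inv_eq_iff_eq_mul.2 (mem_cn_zp.1 (k ⟨mul_mem l jE, mem_cn_zp.2 c1⟩)).eq
  have xu : x * u * x⁻¹ = b * u⁻¹ * b⁻¹ := by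
    have e : x * (s * b * s⁻¹) * x⁻¹ = s * (x * b * x⁻¹) * s⁻¹ := by
      simp only [← mul_assoc, c.eq]
      rw [mul_assoc _ s⁻¹, mul_assoc _ x⁻¹, c.inv_inv.eq]
    rw [hu, ← conj_mul, e, conj_inv.symm, i]
    simp [mul_assoc]
  have xj : x * j * x⁻¹ = b * j⁻¹ * b⁻¹ := by rw [hj, ← conj_pow, xu, conj_pow, inv_pow]
  rw [← conj_mul, i, xj] at c2
  have c3 : b * j * (b * j) = 1 := by
    nth_rewrite 1 [← c2]; simp [mul_assoc]
  have c4 := rt _ (mul_mem l jE)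
  rw [c3, one_pow] at c4
  rw [sb, ← mul_assoc, ← c4, one_mul]
  exact (inv_eq_of_mul_eq_one_right c4.symm).symm

theorem max_eq (h : Hy 2 x) [Fact q.Prime] (hq : q ≠ 2) (hS : Maximal (Mq q (zpowers x)) S)
    (k : IsPGroup q W) (n : zpowers x ≤ Nm W) (l : ∀ b ∈ S, x * b * x⁻¹ = b⁻¹ → b ∈ W) :
    S = ⁅W, zpowers x⁆ := by
  have h1 : S ≤ W := hS.1.cm.symm.trans_le (commutator_le.2 fun a ha y hy => by
    rcases zp2 (xx h) hy with rfl | rfl
    · rw [commutatorElement_one_right]; exact one_mem _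
    · refine l _ (comm_le hS.1.nm (commutator_mem_commutator ha hy)) ?_
      have ss : ∀ z : G, y * (y * z) = z := fun z => by rw [← mul_assoc, xx h, one_mul]
      simp [commutatorElement_def, xi h, mul_assoc, xx h])
  have h2 : S ≤ ⁅W, zpowers x⁆ := hS.1.cm.symm.trans_le (commutator_mono h1 le_rfl)
  exact le_antisymm h2 (hS.2 (mq_cm (h.czp.symm ▸ (cop2 hq).symm) k n
    fun e => hS.1.ne (le_bot_iff.1 (h2.trans_eq e))) h2)

theorem mqV (k : IsPGroup q E) (ne : E ≠ ⊥) (n : closure {x, t} ≤ Nm E)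
    (e : ⁅E, zpowers x⁆ = E) : Mq q (closure {x, t}) E :=
  ⟨ne, k, n, le_antisymm (comm_le n)
    (e.symm.trans_le (commutator_mono le_rfl (zpowers_le.2 x_V)))⟩

theorem one_side (oa : (orderOf a).Coprime 2) (oc : (orderOf c).Coprime 2)
    (ia : x * a * x⁻¹ = a⁻¹) (ic : x * c * x⁻¹ = c⁻¹) (ta : Commute t a) (tc : Commute (x * t) c)
    (k : Commute t (a * c * a) ∨ Commute (x * t) (a * c * a)) : a = 1 ∨ c = 1 := by
  rcases k with k | k
  · have h1 : Commute t c := by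
      simpa [mul_assoc] using (ta.inv_right.mul_right k).mul_right ta.inv_right
    have h2 : Commute x c := by simpa using tc.mul_left h1.inv_left
    rw [h2.eq, mul_inv_cancel_right, eq_inv_iff_mul_eq_one, ← sq, ← pow_one 2] at ic
    exact .inr (eq_one_of_pow oc ic)
  · have h1 : x * t * a * (x * t)⁻¹ = a⁻¹ := by
      rw [← ia, mul_assoc x, ta.eq]; simp [mul_assoc]
    have h2 : x * t * (a * c * a) * (x * t)⁻¹ = a * c * a := mul_inv_eq_iff_eq_mul.2 k.eq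
    rw [← conj_mul, ← conj_mul, h1, tc.eq, mul_inv_cancel_right] at h2
    have h3 : a * a * c * (a * a) = c :=
      calc _ = a * (a * c * a) * a := by simp only [mul_assoc]
        _ = c := by rw [← h2]; simp [mul_assoc]
    obtain ⟨d, hd⟩ : ∃ d, d = a * a := ⟨_, rfl⟩
    rw [← hd] at h3
    have h4 : Commute d (c ^ 2 ^ 1) := by
      have e1 : d * c = c * d⁻¹ := eq_mul_inv_of_mul_eq h3
      have e2 : d⁻¹ * c = c * d := by rw [inv_mul_eq_iff_eq_mul, ← mul_assoc, h3]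
      rw [pow_one, sq, Commute, SemiconjBy, ← mul_assoc, e1, mul_assoc, e2, mul_assoc]
    have h5 := mem_cn_zp.1 (mem_of_pow oc (mem_cn_zp.2 h4))
    rw [h5.eq, mul_assoc, mul_eq_left, hd] at h3
    exact .inl (eq_one_of_pow oa (n := 2) (by rw [← h3]; simp [pow_succ, mul_assoc]))

end Two

open Two

theorem Hy.tiq_two (h : Hy 2 x) [Fact q.Prime] (hq : q ≠ 2) : TIq q (zpowers x) := by
  obtain ⟨g, ne, c⟩ := ex_t h
  have ht := h.cj g
  generalize g * x * g⁻¹ = t at ne c ht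
  have ti := tiV h ht hq c ne
  have mV := fun a => mem_V (a := a) (xx h) (xx ht) c
  have xt : x * t ∈ closure {x, t} := mul_mem x_V t_V
  have n1 : x * t ≠ 1 := fun e => ne ((inv_eq_of_mul_eq_one_right e).symm.trans (xi h))
  obtain ⟨K1, k1⟩ := exK h hq ht.ne1 c
  obtain ⟨K2, k2⟩ := exK h hq n1 (mV _ xt).2.1
  have ab : ∀ s ∈ closure {x, t}, closure {x, t} ≤ Cn (zpowers s) := fun a ha =>
    V_le (mem_cn_zp.2 (mV a ha).2.1.symm) (mem_cn_zp.2 (mV a ha).2.2.symm)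
  have vK : ∀ {s K}, s ∈ closure {x, t} → KS q x s K → closure {x, t} ≤ Nm K :=
    fun hs k v hv => k.nm v (mV v hv).2.1 (mem_cn_zp.1 (ab _ hs hv))
  have px : zpowers x ≤ closure {x, t} := zpowers_le.2 x_V
  -- the pieces of an invariant `q`-group
  have pc : ∀ {s K} {E : Subgroup G}, s ∈ closure {x, t} → KS q x s K → IsPGroup q E →
      closure {x, t} ≤ Nm E → ⁅E ⊓ Cn (zpowers s), zpowers x⁆ ≠ ⊥ →
      ∃ D, Mq q (closure {x, t}) D ∧ D ≤ E ∧ D ≤ K := fun {s K E} hs k pE nE e => by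
    have n : closure {x, t} ≤ Nm (E ⊓ Cn (zpowers s)) :=
      fun v hv => nm_inf (nE hv) (le_normalizer (ab s hs hv))
    have p1 := pE.to_le (inf_le_left (b := Cn (zpowers s)))
    exact ⟨_, mqV (p1.to_le (comm_le (px.trans n))) e
      (fun v hv => nm_comm (n hv) (cn_le_nm (mem_cn_zp.2 (mV v hv).2.1)))
      (stab h hq p1 (px.trans n)), (comm_le (px.trans n)).trans inf_le_left,
      k.le _ p1 inf_le_right (px.trans n)⟩
  have pb : ∀ {s s' K b} {E : Subgroup G}, s ∈ closure {x, t} → s' = x * s → KS q x s' K →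
      IsPGroup q E → closure {x, t} ≤ Nm E → b ∈ E → x * b * x⁻¹ = b⁻¹ →
      ⁅E ⊓ Cn (zpowers s), zpowers x⁆ = ⊥ → b ∈ K := fun {s s' K b E} hs e k pE nE l i e' => by
    have hs' : s' ∈ closure {x, t} := e ▸ mul_mem x_V hs
    have h1 := inv_s (Nat.coprime_two_right.1 (pg_cop pE (cop2 hq))) (mV s hs).2.1 (mV s hs).1
      (nE x_V) (nE hs) (comm_eq_bot.1 e') l i
    have h2 : s' * b * s'⁻¹ = b := by
      have : s' * b * s'⁻¹ = x * (s * b * s⁻¹) * x⁻¹ := by rw [e]; simp [mul_assoc]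
      rw [this, h1, ← conj_inv, i, inv_inv]
    exact k.le _ (pE.to_le inf_le_left) inf_le_right
      (fun v hv => nm_inf (nE (px hv)) (le_normalizer (ab s' hs' (px hv))))
      (inv_mem_cm (ocop hq pE l) ⟨l, mem_cn_zp.2 (mul_inv_eq_iff_eq_mul.1 h2)⟩ i)
  have tx : t = x * (x * t) := by rw [← mul_assoc, xx h, one_mul]
  have tri : ∀ {S : Subgroup G} {b}, IsPGroup q S → b ∈ S → x * b * x⁻¹ = b⁻¹ →
      (b ∈ K1 ∨ b ∈ K2) ∨ ∃ E D1 D2, Mq q (closure {x, t}) E ∧ Mq q (closure {x, t}) D1 ∧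
        Mq q (closure {x, t}) D2 ∧ b ∈ E ∧ D1 ≤ E ∧ D1 ≤ K1 ∧ D2 ≤ E ∧ D2 ≤ K2 :=
    fun {S b} pS l i => by
      obtain ⟨E, pE, nE, cE, bE⟩ := exE h hq c pS l i
      by_cases e1 : ⁅E ⊓ Cn (zpowers t), zpowers x⁆ = ⊥
      · exact .inl (.inr (pb t_V rfl k2 pE nE bE i e1))
      by_cases e2 : ⁅E ⊓ Cn (zpowers (x * t)), zpowers x⁆ = ⊥
      · exact .inl (.inl (pb xt tx k1 pE nE bE i e2))
      obtain ⟨D1, a1, a2, a3⟩ := pc t_V k1 pE nE e1
      obtain ⟨D2, b1, b2, b3⟩ := pc xt k2 pE nE e2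
      exact .inr ⟨E, D1, D2, mqV pE (fun e => a1.ne (le_bot_iff.1 (a2.trans_eq e))) nE cE, a1, b1,
        bE, a2, a3, b2, b3⟩
  intro S T D hS hT hD dS dT
  by_cases z : ∃ E D1 D2, Mq q (closure {x, t}) E ∧ Mq q (closure {x, t}) D1 ∧
      Mq q (closure {x, t}) D2 ∧ D1 ≤ E ∧ D1 ≤ K1 ∧ D2 ≤ E ∧ D2 ≤ K2
  · obtain ⟨E, D1, D2, mE, m1, m2, a1, a2, b1, b2⟩ := z
    obtain ⟨W, lW, hW⟩ := mE.ex
    have up : ∀ {D L : Subgroup G}, Mq q (closure {x, t}) D → Mq q (closure {x, t}) L → D ≤ L →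
        D ≤ W → L ≤ W := fun mD mL l1 l2 => by
      obtain ⟨W', lW', hW'⟩ := mL.ex
      exact lW'.trans_eq (ti _ _ _ hW' hW mD (l1.trans lW') l2)
    have l1 := up m1 (mqV k1.pg (fun e => m1.ne (le_bot_iff.1 (a2.trans_eq e))) (vK t_V k1) k1.cm)
      a2 (a1.trans lW)
    have l2 := up m2 (mqV k2.pg (fun e => m2.ne (le_bot_iff.1 (b2.trans_eq e))) (vK xt k2) k2.cm)
      b2 (b1.trans lW)
    have al : ∀ {S : Subgroup G}, Maximal (Mq q (zpowers x)) S → S = ⁅W, zpowers x⁆ := fun hS =>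
      max_eq h hq hS hW.1.pg (px.trans hW.1.nm) fun b hb i => by
        rcases tri hS.1.pg hb i with (e | e) | ⟨E', D1', -, mE', m1', -, bE, c1, c2, -⟩
        exacts [l1 e, l2 e, up m1' mE' c1 (c2.trans l1) bE]
    exact (al hS).trans (al hT).symm
  · have al : ∀ {S : Subgroup G}, Maximal (Mq q (zpowers x)) S → S = K1 ∨ S = K2 := fun {S} hS => by
      have t2 : ∀ b ∈ S, x * b * x⁻¹ = b⁻¹ → b ∈ K1 ∨ b ∈ K2 := fun b hb i =>
        (tri hS.1.pg hb i).resolve_right fun ⟨E, D1, D2, a1, a2, a3, _, a4⟩ =>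
          z ⟨E, D1, D2, a1, a2, a3, a4⟩
      by_cases e : ∀ b ∈ S, x * b * x⁻¹ = b⁻¹ → b ∈ K1
      · exact .inl ((max_eq h hq hS k1.pg (px.trans (vK t_V k1)) e).trans k1.cm)
      refine .inr ((max_eq h hq hS k2.pg (px.trans (vK xt k2)) fun a ha ia => ?_).trans k2.cm)
      push Not at e
      obtain ⟨b, hb, ib, nb⟩ := e
      by_contra na
      have i3 : x * (a * b * a) * x⁻¹ = (a * b * a)⁻¹ := by
        rw [← conj_mul, ← conj_mul, ia, ib]; simp [mul_assoc]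
      rcases one_side (ocop hq hS.1.pg ha) (ocop hq hS.1.pg hb) ia ib
        (mem_cn_zp.1 (k1.cn ((t2 a ha ia).resolve_right na)))
        (mem_cn_zp.1 (k2.cn ((t2 b hb ib).resolve_left nb)))
        ((t2 _ (mul_mem (mul_mem ha hb) ha) i3).imp (fun e => mem_cn_zp.1 (k1.cn e))
          fun e => mem_cn_zp.1 (k2.cn e)) with rfl | rfl
      exacts [na (one_mem _), nb (one_mem _)]
    have no : D ≤ K1 → D ≤ K2 → False := fun l1 l2 => hD.ne (hD.cm.symm.trans (comm_eq_bot.2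
      fun d hd => mem_cn_zp.2 (by
        simpa using (mem_cn_zp.1 (k2.cn (l2 hd))).mul_left (mem_cn_zp.1 (k1.cn (l1 hd))).inv_left)))
    rcases al hS with rfl | rfl <;> rcases al hT with rfl | rfl
    exacts [rfl, (no dS dT).elim, (no dT dS).elim, rfl]

end Cfsg.Lib.FF2
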