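import Cfsg.Agent.FF2.Odd
import Cfsg.Agent.FF2.Cross
import Cfsg.Agent.FF2.Two

/-! Every member lies in a unique maximal member. -/

set_option autoImplicit false

namespace Cfsg.Lib.FF2

open Subgroup Cfsg.Lib.Solv
open scoped commutatorElement

variable {G : Type*} [Group G] [Finite G]
variable {D E H S T : Subgroup G} {x : G} {p q : ℕ}

theorem Hy.tiq (h : Hy p x) [Fact q.Prime] (hq : q ≠ p) : TIq q (zpowers x) := by
  by_cases k : p = 2
  · subst k; exact h.tiq_two hq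
  · exact h.tiq_odd k hq

omit [Finite G] in
theorem comm_sup_le {A B L : Subgroup G} (n : B ≤ Nm D) (l : D ≤ Nm L) (h1 : ⁅D, A⁆ ≤ L)
    (h2 : ⁅B, A⁆ ≤ L) : ⁅D ⊔ B, A⁆ ≤ L := commutator_le.2 fun a ha b hb => by
  obtain ⟨s, hs, t, ht, rfl⟩ := mem_sup_nm n ha
  have : ⁅s * t, b⁆ = s * ⁅t, b⁆ * s⁻¹ * ⁅s, b⁆ := by simp only [commutatorElement_def]; group
  rw [this]
  exact mul_mem (nm_cj (l hs) (h2 (commutator_mem_commutator ht hb)))
    (h1 (commutator_mem_commutator hs hb))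

/-- both parts of a member are equal to their commutator with `x` -/
theorem Mb.parts [Fact q.Prime] (m : Mb p x D) :
    ⁅qp q D, zpowers x⁆ = qp q D ∧ ⁅rp q D, zpowers x⁆ = rp q D := by
  have n1 : zpowers x ≤ Nm (qp q D) := fun _ k => nm_qp (m.nm k)
  have n2 : zpowers x ≤ Nm (rp q D) := fun _ k => nm_rp (m.nm k)
  have c := rp_le_cn (q := q) m.nil
  have c1 : ⁅rp q D, zpowers x⁆ ≤ Cn ⁅qp q D, zpowers x⁆ :=
    (comm_le n2).trans (c.trans (centralizer_le (comm_le n1)))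
  have l : D ≤ ⁅qp q D, zpowers x⁆ ⊔ ⁅rp q D, zpowers x⁆ := by
    conv_lhs => rw [← m.cm, ← qp_sup_rp (q := q) (K := D)]
    exact comm_sup_le (c.trans cn_le_nm) (fun g hg => nm_sup (le_nm_comm hg) (cn_le_nm
      (centralizer_le (comm_le n2) (le_centralizer_iff.1 c hg)))) le_sup_left le_sup_right
  refine ⟨le_antisymm (comm_le n1) fun a ha => ?_, le_antisymm (comm_le n2) fun a ha => ?_⟩
  · obtain ⟨s, hs, t, ht, rfl⟩ := mem_sup_nm (c1.trans cn_le_nm) (l (qp_le ha))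
    obtain ⟨-, n, e⟩ := (mem_qp m.nil).1 ((mul_mem_cancel_left (comm_le n1 hs)).1 ha)
    rwa [eq_one_of_pow ((mem_rp m.nil).1 (comm_le n2 ht)).2 e, mul_one]
  · obtain ⟨s, hs, t, ht, rfl⟩ := mem_sup_nm (c1.trans cn_le_nm) (l (rp_le ha))
    obtain ⟨-, n, e⟩ := (mem_qp m.nil).1 (comm_le n1 hs)
    rwa [eq_one_of_pow ((mem_rp m.nil).1 ((mul_mem_cancel_right (comm_le n2 ht)).1 ha)).2 e,
      one_mul]

theorem Mb.mqp [Fact q.Prime] (m : Mb p x D) (k : qp q D ≠ ⊥) : Mq q (zpowers x) (qp q D) :=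
  ⟨k, qp_pg m.nil, fun _ k => nm_qp (m.nm k), m.parts.1⟩

theorem Mb.mrp [Fact q.Prime] (m : Mb p x D) (k : rp q D ≠ ⊥) : Mb p x (rp q D) :=
  ⟨k, nil_of_le m.nil rp_le, cop_of_le m.cop rp_le, fun _ k => nm_rp (m.nm k), m.parts.2⟩

theorem Hy.ti (h : Hy p x) (hS : Maximal (Mb p x) S) (hT : Maximal (Mb p x) T) (hD : Mb p x D)
    (l1 : D ≤ S) (l2 : D ≤ T) : S = T := by
  obtain ⟨q, hq, dq⟩ := Nat.exists_prime_and_dvd (n := Nat.card D)
    fun e => hD.ne (card_eq_one.1 e)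
  have := Fact.mk hq
  have qp' : q ≠ p := fun e => hq.one_lt.ne' (Nat.Coprime.eq_one_of_dvd (e ▸ hD.cop.symm) dq)
  have ne : qp q D ≠ ⊥ := fun e => by
    obtain ⟨a, ha⟩ := exists_prime_orderOf_dvd_card' q dq
    have : (a : G) ∈ qp q D := subset_closure ⟨a.2, 1, by
      rw [pow_one, ← ha, ← Subgroup.orderOf_coe, pow_orderOf_eq_one]⟩
    rw [e, mem_bot] at this
    exact hq.one_lt.ne (by rw [← ha, ← Subgroup.orderOf_coe, this, orderOf_one])
  have md := hD.mqp ne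
  obtain ⟨U, u1, u2⟩ := md.ex
  have key : ∀ S, Mb p x S → D ≤ S → S ≤ Nm U := fun S m l => by
    have l' : qp q D ≤ qp q S := le_qp md.pg (qp_le.trans l)
    rw [← qp_sup_rp (q := q) (K := S)]
    refine sup_le ?_ ?_
    · obtain ⟨W, w1, w2⟩ := (m.mqp fun e => ne (le_bot_iff.1 (l'.trans_eq e))).ex
      rw [h.tiq qp' U W _ u2 w2 md u1 (l'.trans w1)]
      exact w1.trans le_normalizer
    · by_cases k : rp q S = ⊥
      · exact k.trans_le bot_le
      exact (le_centralizer_iff.1 (h.cross qp' u2.1 (m.mrp k) (rp_cop m.nil) (md.cm_ne (le_inf u1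
        (l'.trans (le_centralizer_iff.1 (rp_le_cn m.nil))))))).trans cn_le_nm
  have m := h.sup (h.nm_ne u2.1.ne u2.1.pg.isNilpotent) (u2.1.nm (mem_zpowers x)) hS.1 hT.1
    (key S hS.1 l1) (key T hT.1 l2)
  exact le_antisymm (le_sup_left.trans (hT.2 m le_sup_right))
    (le_sup_right.trans (hS.2 m le_sup_left))

/-- a member inside a proper subgroup that contains `x` and a member below `S` lies in `S` -/
theorem Hy.le_of_link (h : Hy p x) (hS : Maximal (Mb p x) S) (k : H ≠ ⊤) (l : x ∈ H)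
    (hD : Mb p x D) (hE : Mb p x E) (d1 : D ≤ S) (d2 : D ≤ H) (e2 : E ≤ H) : E ≤ S := by
  obtain ⟨U, u1, u2⟩ := (h.sup k l hD hE d2 e2).ex
  rw [h.ti hS u2 hD d1 (le_sup_left.trans u1)]
  exact le_sup_right.trans u1

theorem Hy.link (h : Hy p x) (hS : Maximal (Mb p x) S) (hT : Maximal (Mb p x) T) (k : H ≠ ⊤)
    (l : x ∈ H) (hD : Mb p x D) (hE : Mb p x E) (d1 : D ≤ S) (d2 : D ≤ H) (e1 : E ≤ T)
    (e2 : E ≤ H) : S = T :=
  h.ti hS hT hE (h.le_of_link hS k l hD hE d1 d2 e2) e1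

end Cfsg.Lib.FF2
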